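import Mathlib
import Cfsg.Agent.Lib.Pres.Carmichael

/-!
# Gluing: bounding the order of the group generated by `y = z a` and `c`

Abstract group-theoretic core of the two-generator presentations of `A_n` and `S_n`.
-/

set_option autoImplicit false
set_option linter.unusedSectionVars false
set_option linter.unusedSimpArgs false
set_option linter.unusedVariables false

namespace Cfsg.Agent.Lib.Pres.Glue

open Equiv Equiv.Perm Cfsg.Agent.Lib.Pres.Carmichael

variable {Γ : Type*} [Group Γ]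

/-- The element `x₀`. -/
def x0 (a c : Γ) : Γ := c⁻¹ * a * c

/-- The element `d`. -/
def dd (z c : Γ) : Γ := z⁻¹ * c

/-- The labelled elements `x_i`. -/
def xl (p : ℕ) (z a c : Γ) (i : ZMod p) : Γ := z ^ i.val * x0 a c * (z ^ i.val)⁻¹

/-- Evaluation of words in the `x_i`. -/
def ev (p : ℕ) (z a c : Γ) : FreeGroup (ZMod p) →* Γ := FreeGroup.lift (xl p z a c)

theorem pair_symm {u v : Γ} (h : (u * v) ^ 2 = 1) : (v * u) ^ 2 = 1 := by
  have : (v * u) ^ 2 = u⁻¹ * (u * v) ^ 2 * u := by simp only [sq]; group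
  rw [this, h]; group

theorem pair_conj (g : Γ) {u v : Γ} (h : (u * v) ^ 2 = 1) :
    ((g * u * g⁻¹) * (g * v * g⁻¹)) ^ 2 = 1 := by
  have : ((g * u * g⁻¹) * (g * v * g⁻¹)) ^ 2 = g * (u * v) ^ 2 * g⁻¹ := by simp only [sq]; group
  rw [this, h]; group

theorem pair_unit (s : ℤˣ) {u v : Γ} (h : (u * v) ^ 2 = 1) :
    (u ^ (s : ℤ) * v ^ (s : ℤ)) ^ 2 = 1 := by
  rcases Int.units_eq_one_or s with rfl | rfl
  · simpa using h
  · have h' := pair_symm h
    have : (u ^ (((-1 : ℤˣ)) : ℤ) * v ^ (((-1 : ℤˣ)) : ℤ)) ^ 2 = ((v * u) ^ 2)⁻¹ := by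
      simp only [Units.val_neg, Units.val_one, Int.reduceNeg, zpow_neg, zpow_one, sq]
      group
    rw [this, h']; simp

theorem zpow_unit_unit (s : ℤˣ) (u : Γ) : (u ^ (s : ℤ)) ^ (s : ℤ) = u := by
  rw [← zpow_mul, ← Units.val_mul, Int.units_mul_self]; simp

theorem zpow_unit_inj (s : ℤˣ) {u v : Γ} (h : u ^ (s : ℤ) = v ^ (s : ℤ)) : u = v := by
  have := congrArg (fun w => w ^ (s : ℤ)) h
  simpa [zpow_unit_unit] using this

theorem unit_pow3 (s : ℤˣ) {u : Γ} (h : u ^ 3 = 1) : (u ^ (s : ℤ)) ^ 3 = 1 := by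
  rw [← zpow_natCast, ← zpow_mul, mul_comm, zpow_mul, zpow_natCast, h, one_zpow]

/-- The relations of the core theorem. -/
structure Core (p r g : ℕ) (e eh : ℤˣ) (E : ℕ) (z a c : Γ) (Wh WD : FreeGroup (ZMod p)) : Prop where
  hz : z ^ p = 1
  ha : a ^ 3 = 1
  hza : z * a = a * z
  hHz : ev p z a c Wh * z * (ev p z a c Wh)⁻¹ = z ^ g
  hHa : ev p z a c Wh * a * (ev p z a c Wh)⁻¹ = a ^ (eh : ℤ)
  hpair : (xl p z a c 0 * xl p z a c 1) ^ 2 = 1
  hdH : dd z c * ev p z a c Wh = ev p z a c Wh * dd z c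
  hdx : dd z c * xl p z a c 1 * (dd z c)⁻¹ = xl p z a c 1 ^ (e : ℤ)
  hD : dd z c ^ E = c ^ r * ev p z a c WD * (c ^ r)⁻¹

namespace Core

variable {p r g : ℕ} [hpf : Fact p.Prime] [hne : NeZero p] {e eh : ℤˣ} {E : ℕ} {z a c : Γ}
  {Wh WD : FreeGroup (ZMod p)}

theorem x0_eq (C : Core p r g e eh E z a c Wh WD) :
    x0 a c = (dd z c)⁻¹ * a * dd z c := by
  have h : z * a * z⁻¹ = a := by rw [C.hza]; group
  calc x0 a c = c⁻¹ * (z * a * z⁻¹) * c := by rw [h]; rfl
    _ = (dd z c)⁻¹ * a * dd z c := by simp only [dd]; group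

theorem x0_cube (C : Core p r g e eh E z a c Wh WD) : x0 a c ^ 3 = 1 := by
  have : x0 a c ^ 3 = c⁻¹ * a ^ 3 * c := by
    have := conj_pow (a := c⁻¹) (b := a) (i := 3)
    simpa [x0] using this
  rw [this, C.ha]; group

theorem xl_zero : xl p z a c 0 = x0 a c := by
  simp [xl]

theorem xl_nat (C : Core p r g e eh E z a c Wh WD) (k : ℕ) :
    xl p z a c (k : ZMod p) = z ^ k * x0 a c * (z ^ k)⁻¹ := by
  have h : z ^ k = z ^ (k % p) := pow_eq_pow_mod k C.hz
  rw [xl, ZMod.val_natCast, ← h]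

theorem xl_succ (C : Core p r g e eh E z a c Wh WD) (i : ZMod p) :
    z * xl p z a c i * z⁻¹ = xl p z a c (i + 1) := by
  have h1 : ((i.val + 1 : ℕ) : ZMod p) = i + 1 := by
    push_cast; rw [ZMod.natCast_zmod_val]
  rw [← h1, C.xl_nat, xl, pow_succ']
  group

theorem xl_cube (C : Core p r g e eh E z a c Wh WD) (i : ZMod p) : xl p z a c i ^ 3 = 1 := by
  rw [xl, conj_pow, C.x0_cube]; group

theorem H_x0 (C : Core p r g e eh E z a c Wh WD) :
    ev p z a c Wh * x0 a c * (ev p z a c Wh)⁻¹ = x0 a c ^ (eh : ℤ) := by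
  set H := ev p z a c Wh
  set d := dd z c
  have h1 : H * d⁻¹ = d⁻¹ * H := by
    rw [mul_inv_eq_iff_eq_mul, mul_assoc, eq_inv_mul_iff_mul_eq, C.hdH]
  have h2 : d * H⁻¹ = H⁻¹ * d := by
    rw [mul_inv_eq_iff_eq_mul, mul_assoc, eq_inv_mul_iff_mul_eq, C.hdH]
  rw [C.x0_eq]
  calc H * (d⁻¹ * a * d) * H⁻¹ = (H * d⁻¹) * a * (d * H⁻¹) := by group
    _ = d⁻¹ * (H * a * H⁻¹) * d := by rw [h1, h2]; group
    _ = d⁻¹ * a ^ (eh : ℤ) * d := by rw [C.hHa]
    _ = (d⁻¹ * a * d) ^ (eh : ℤ) := by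
        have := conj_zpow (a := d⁻¹) (b := a) (i := (eh : ℤ))
        simpa using this.symm

theorem H_pow (C : Core p r g e eh E z a c Wh WD) (k : ℕ) :
    ev p z a c Wh * z ^ k * (ev p z a c Wh)⁻¹ = z ^ (g * k) := by
  rw [← conj_pow, C.hHz, pow_mul]

theorem H_xl (C : Core p r g e eh E z a c Wh WD) (i : ZMod p) :
    ev p z a c Wh * xl p z a c i * (ev p z a c Wh)⁻¹ = xl p z a c ((g : ZMod p) * i) ^ (eh : ℤ) := by
  set H := ev p z a c Wh
  have h1 : ((g * i.val : ℕ) : ZMod p) = (g : ZMod p) * i := by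
    push_cast; rw [ZMod.natCast_zmod_val]
  have h2 : H * (z ^ i.val)⁻¹ * H⁻¹ = (z ^ (g * i.val))⁻¹ := by
    have h3 : H * (z ^ i.val)⁻¹ * H⁻¹ = (H * z ^ i.val * H⁻¹)⁻¹ := by group
    rw [h3, C.H_pow]
  rw [← h1, C.xl_nat, xl]
  calc H * (z ^ i.val * x0 a c * (z ^ i.val)⁻¹) * H⁻¹
      = (H * z ^ i.val * H⁻¹) * (H * x0 a c * H⁻¹) * (H * (z ^ i.val)⁻¹ * H⁻¹) := by group
    _ = z ^ (g * i.val) * x0 a c ^ (eh : ℤ) * (z ^ (g * i.val))⁻¹ := by
        rw [C.H_pow, C.H_x0, h2]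
    _ = (z ^ (g * i.val) * x0 a c * (z ^ (g * i.val))⁻¹) ^ (eh : ℤ) := by
        rw [conj_zpow]

theorem pair_shift (C : Core p r g e eh E z a c Wh WD) {i j : ZMod p}
    (h : (xl p z a c i * xl p z a c j) ^ 2 = 1) :
    (xl p z a c (i + 1) * xl p z a c (j + 1)) ^ 2 = 1 := by
  rw [← C.xl_succ, ← C.xl_succ]
  exact pair_conj z h

theorem pair_mul (C : Core p r g e eh E z a c Wh WD) {i j : ZMod p}
    (h : (xl p z a c i * xl p z a c j) ^ 2 = 1) :
    (xl p z a c ((g : ZMod p) * i) * xl p z a c ((g : ZMod p) * j)) ^ 2 = 1 := by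
  have h1 := pair_conj (ev p z a c Wh) h
  rw [C.H_xl, C.H_xl] at h1
  have h2 := pair_unit eh h1
  simpa [zpow_unit_unit] using h2

theorem pair_all (C : Core p r g e eh E z a c Wh WD)
    (hg2 : ∀ u : ZMod p, u ≠ 0 → ∃ k : ℕ, u = (g : ZMod p) ^ k) {i j : ZMod p} (hij : i ≠ j) :
    (xl p z a c i * xl p z a c j) ^ 2 = 1 := by
  have h0 : ∀ k : ℕ, (xl p z a c 0 * xl p z a c ((g : ZMod p) ^ k)) ^ 2 = 1 := by
    intro k
    induction k with
    | zero => simpa using C.hpair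
    | succ k ih =>
      have := C.pair_mul ih
      rw [mul_zero] at this
      rw [pow_succ' (g : ZMod p) k]
      exact this
  have h1 : ∀ u : ZMod p, u ≠ 0 → (xl p z a c 0 * xl p z a c u) ^ 2 = 1 := by
    intro u hu
    obtain ⟨k, rfl⟩ := hg2 u hu
    exact h0 k
  have h2 : ∀ (k : ℕ) (u : ZMod p), u ≠ 0 →
      (xl p z a c (k : ZMod p) * xl p z a c (u + k)) ^ 2 = 1 := by
    intro k u hu
    induction k with
    | zero => simpa using h1 u hu
    | succ k ih =>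
      have := C.pair_shift ih
      push_cast
      rwa [add_assoc] at this
  have h3 := h2 i.val (j - i) (sub_ne_zero.2 hij.symm)
  rwa [ZMod.natCast_zmod_val, sub_add_cancel] at h3

theorem isCar (C : Core p r g e eh E z a c Wh WD)
    (hg2 : ∀ u : ZMod p, u ≠ 0 → ∃ k : ℕ, u = (g : ZMod p) ^ k) : IsCar (xl p z a c) :=
  ⟨C.xl_cube, fun _ _ hij => C.pair_all hg2 hij⟩

end Core

/-- Signs. -/
def sg (e : ℤˣ) (k : ℤ) : ℤˣ := e ^ k

theorem sg_add (e : ℤˣ) (k j : ℤ) : sg e (k + j) = sg e k * sg e j := zpow_add _ _ _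

theorem sg_sq (e : ℤˣ) (k : ℤ) : sg e k * sg e k = 1 := Int.units_mul_self _

/-- The elements `X̂(k)`. -/
def Xh (e : ℤˣ) (a c : Γ) (k : ℤ) : Γ := c ^ k * x0 a c ^ ((sg e k : ℤˣ) : ℤ) * (c ^ k)⁻¹

theorem Xh_zero (e : ℤˣ) (a c : Γ) : Xh e a c 0 = x0 a c := by
  simp [Xh, sg]

theorem conj_Xh (e : ℤˣ) (a c : Γ) (j k : ℤ) :
    c ^ j * Xh e a c k * (c ^ j)⁻¹ = Xh e a c (k + j) ^ ((sg e j : ℤˣ) : ℤ) := by
  have h1 : x0 a c ^ ((sg e k : ℤˣ) : ℤ) =
      (x0 a c ^ ((sg e (k + j) : ℤˣ) : ℤ)) ^ ((sg e j : ℤˣ) : ℤ) := by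
    rw [← zpow_mul, ← Units.val_mul, sg_add, mul_assoc, sg_sq, mul_one]
  have h2 : c ^ (k + j) = c ^ j * c ^ k := by
    rw [add_comm, zpow_add]
  rw [Xh, Xh, conj_zpow, ← h1, h2]
  group

theorem c_conj_Xh (e : ℤˣ) (a c : Γ) (k : ℤ) :
    c * Xh e a c k * c⁻¹ = Xh e a c (k + 1) ^ (e : ℤ) := by
  have := conj_Xh e a c 1 k
  simpa [sg] using this

theorem a_eq (e : ℤˣ) (a c : Γ) : Xh e a c 1 ^ (e : ℤ) = a := by
  have h := c_conj_Xh e a c 0
  rw [zero_add, Xh_zero, x0] at h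
  rw [← h]; group

namespace Core

variable {p r g : ℕ} [hpf : Fact p.Prime] [hne : NeZero p] {e eh : ℤˣ} {E : ℕ} {z a c : Γ}
  {Wh WD : FreeGroup (ZMod p)}

theorem Xh_cube (C : Core p r g e eh E z a c Wh WD) (k : ℤ) : Xh e a c k ^ 3 = 1 := by
  rw [Xh, conj_pow, unit_pow3 _ C.x0_cube]; group

theorem d_xl (C : Core p r g e eh E z a c Wh WD)
    (hg2 : ∀ u : ZMod p, u ≠ 0 → ∃ k : ℕ, u = (g : ZMod p) ^ k) {i : ZMod p} (hi : i ≠ 0) :
    dd z c * xl p z a c i * (dd z c)⁻¹ = xl p z a c i ^ (e : ℤ) := by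
  obtain ⟨k, rfl⟩ := hg2 i hi
  clear hi
  induction k with
  | zero => simpa using C.hdx
  | succ k ih =>
    rw [pow_succ' (g : ZMod p) k]
    set u := (g : ZMod p) ^ k
    set H := ev p z a c Wh
    set d := dd z c
    have h1 : xl p z a c ((g : ZMod p) * u) = (H * xl p z a c u * H⁻¹) ^ (eh : ℤ) := by
      rw [C.H_xl, zpow_unit_unit]
    have hdH : d * H = H * d := C.hdH
    have h2 : H⁻¹ * d⁻¹ = d⁻¹ * H⁻¹ := by
      rw [← mul_inv_rev, ← mul_inv_rev, hdH]
    have h3 : d * (H * xl p z a c u * H⁻¹) * d⁻¹ = H * (d * xl p z a c u * d⁻¹) * H⁻¹ := by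
      calc d * (H * xl p z a c u * H⁻¹) * d⁻¹ = (d * H) * xl p z a c u * (H⁻¹ * d⁻¹) := by group
        _ = (H * d) * xl p z a c u * (d⁻¹ * H⁻¹) := by rw [hdH, h2]
        _ = _ := by group
    rw [h1, ← conj_zpow (a := d), h3, ih, ← conj_zpow (a := H), ← zpow_mul, ← zpow_mul,
      mul_comm ((e : ℤ)) ((eh : ℤ))]

theorem c_xl (C : Core p r g e eh E z a c Wh WD)
    (hg2 : ∀ u : ZMod p, u ≠ 0 → ∃ k : ℕ, u = (g : ZMod p) ^ k) {i : ZMod p} (hi : i ≠ 0) :
    c * xl p z a c i * c⁻¹ = xl p z a c (i + 1) ^ (e : ℤ) := by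
  have hc : c = z * dd z c := by simp [dd]
  calc c * xl p z a c i * c⁻¹ = z * (dd z c * xl p z a c i * (dd z c)⁻¹) * z⁻¹ := by
        simp only [dd]; group
    _ = z * xl p z a c i ^ (e : ℤ) * z⁻¹ := by rw [C.d_xl hg2 hi]
    _ = _ := by rw [← conj_zpow, C.xl_succ]

theorem xl_eq_Xh (C : Core p r g e eh E z a c Wh WD)
    (hg2 : ∀ u : ZMod p, u ≠ 0 → ∃ k : ℕ, u = (g : ZMod p) ^ k) (t : ℕ) (ht : t < p) :
    xl p z a c ((p - t : ℕ) : ZMod p) = Xh e a c (-(t : ℤ)) := by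
  induction t with
  | zero =>
    simp [Xh_zero, xl_zero]
  | succ t ih =>
    have ih' := ih (by omega)
    set i : ZMod p := ((p - (t + 1) : ℕ) : ZMod p) with hi
    have hi0 : i ≠ 0 := by
      rw [hi, Ne, ZMod.natCast_eq_zero_iff]
      intro h
      have := Nat.le_of_dvd (by omega) h
      omega
    have hi1 : i + 1 = ((p - t : ℕ) : ZMod p) := by
      rw [hi, ← Nat.cast_add_one]
      congr 1
      omega
    have h1 := C.c_xl hg2 hi0
    rw [hi1, ih'] at h1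
    have h2 := c_conj_Xh e a c (-((t + 1 : ℕ) : ℤ))
    have h3 : -((t + 1 : ℕ) : ℤ) + 1 = -(t : ℤ) := by push_cast; ring
    rw [h3, ← h1] at h2
    have h4 : xl p z a c i = Xh e a c (-((t + 1 : ℕ) : ℤ)) := by
      have := mul_left_cancel (mul_right_cancel h2)
      exact this.symm
    exact h4

theorem pair_window (C : Core p r g e eh E z a c Wh WD)
    (hg2 : ∀ u : ZMod p, u ≠ 0 → ∃ k : ℕ, u = (g : ZMod p) ^ k) (t : ℕ) (h1 : 1 ≤ t) (ht : t < p) :
    (Xh e a c (-(t : ℤ)) * Xh e a c 0) ^ 2 = 1 := by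
  have h2 := C.xl_eq_Xh hg2 t ht
  rw [← h2, Xh_zero, ← xl_zero (p := p) (z := z)]
  apply C.pair_all hg2
  rw [Ne, ZMod.natCast_eq_zero_iff]
  intro h
  have := Nat.le_of_dvd (by omega) h
  omega

theorem pair_Xh (C : Core p r g e eh E z a c Wh WD)
    (hg2 : ∀ u : ZMod p, u ≠ 0 → ∃ k : ℕ, u = (g : ZMod p) ^ k) (k : ℤ) (t : ℕ) (h1 : 1 ≤ t)
    (ht : t < p) : (Xh e a c k * Xh e a c (k + t)) ^ 2 = 1 := by
  have h2 := pair_conj (c ^ (k + t)) (C.pair_window hg2 t h1 ht)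
  rw [conj_Xh, conj_Xh] at h2
  have h3 := pair_unit (sg e (k + t)) h2
  simp only [zpow_unit_unit] at h3
  have h4 : -(t : ℤ) + (k + t) = k := by ring
  have h5 : (0 : ℤ) + (k + t) = k + t := by ring
  rwa [h4, h5] at h3

theorem z_eq (C : Core p r g e eh E z a c Wh WD)
    (θ : alternatingGroup (ZMod p ⊕ Bool) →* Γ) (hθ : ∀ i, θ (cycA i) = xl p z a c i)
    (zA hA : alternatingGroup (ZMod p ⊕ Bool)) (hzA1 : zA ^ p = 1)
    (hzA2 : ∀ i, zA * cycA i * zA⁻¹ = cycA (i + 1)) (hhA2 : hA * zA * hA⁻¹ = zA ^ g)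
    (hH : ev p z a c Wh = θ hA) (hg1 : (g : ZMod p) ≠ 1) : z = θ zA := by
  set τ := θ zA with hτ
  set ζ := τ⁻¹ * z with hζ
  have hzτ : z = τ * ζ := by simp [hζ]
  have hτx : ∀ i, τ * xl p z a c i * τ⁻¹ = xl p z a c (i + 1) := by
    intro i
    rw [← hθ, ← hθ, ← hzA2, map_mul, map_mul, map_inv]
  have hζx : ∀ i, ζ * xl p z a c i * ζ⁻¹ = xl p z a c i := by
    intro i
    have h1 : ζ * xl p z a c i * ζ⁻¹ = τ⁻¹ * (z * xl p z a c i * z⁻¹) * τ := by
      simp only [hζ]; group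
    rw [h1, C.xl_succ, ← hτx]
    group
  have hζθ : ∀ u, ζ * θ u = θ u * ζ := by
    intro u
    have hle : (⊤ : Subgroup (alternatingGroup (ZMod p ⊕ Bool))) ≤
        (Subgroup.centralizer {ζ}).comap θ := by
      rw [← closure_cycA, Subgroup.closure_le]
      rintro _ ⟨i, rfl⟩
      simp only [SetLike.mem_coe, Subgroup.mem_comap, Subgroup.mem_centralizer_singleton_iff]
      rw [hθ]
      have := hζx i
      rw [mul_inv_eq_iff_eq_mul] at this
      exact this.symm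
    have := hle (Subgroup.mem_top u)
    simp only [Subgroup.mem_comap, Subgroup.mem_centralizer_singleton_iff] at this
    exact this.symm
  have hcomm : Commute τ ζ := (hζθ zA).symm
  have hτp : τ ^ p = 1 := by rw [hτ, ← map_pow, hzA1, map_one]
  have hζp : ζ ^ p = 1 := by
    have h1 := C.hz
    rw [hzτ, hcomm.mul_pow, hτp, one_mul] at h1
    exact h1
  have h2 : ζ ^ g = ζ := by
    have h3 := C.hHz
    rw [hH] at h3
    have h4 : θ hA * (τ * ζ) * (θ hA)⁻¹ = τ ^ g * ζ := by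
      have h5 : θ hA * τ * (θ hA)⁻¹ = τ ^ g := by
        rw [hτ, ← map_inv, ← map_mul, ← map_mul, hhA2, map_pow]
      have h6 : θ hA * ζ * (θ hA)⁻¹ = ζ := by
        rw [← hζθ]; group
      calc θ hA * (τ * ζ) * (θ hA)⁻¹ = (θ hA * τ * (θ hA)⁻¹) * (θ hA * ζ * (θ hA)⁻¹) := by group
        _ = _ := by rw [h5, h6]
    rw [hzτ, h4, hcomm.mul_pow] at h3
    exact (mul_left_cancel h3).symm
  have h3 : ζ = 1 := by
    by_contra hne1
    have hord : orderOf ζ = p := orderOf_eq_prime hζp hne1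
    have h4 : ζ ^ g = ζ ^ 1 := by rw [h2, pow_one]
    rw [pow_eq_pow_iff_modEq, hord] at h4
    apply hg1
    have := (ZMod.natCast_eq_natCast_iff g 1 p).2 h4
    simpa using this
  rw [hzτ, h3, mul_one]

theorem wrap (C : Core p r g e eh E z a c Wh WD)
    (hg2 : ∀ u : ZMod p, u ≠ 0 → ∃ k : ℕ, u = (g : ZMod p) ^ k)
    (θ : alternatingGroup (ZMod p ⊕ Bool) →* Γ) (hθ : ∀ i, θ (cycA i) = xl p z a c i)
    (hr1 : 1 ≤ r) (hrp : r ≤ p) (E' : ℕ) (hEE : E * E' = 2)
    (DA : alternatingGroup (ZMod p ⊕ Bool)) (hD : ev p z a c WD = θ DA)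
    (hDA : (DA ^ E') * cycA 0 * (DA ^ E')⁻¹ = cycA (1 - (r : ZMod p))) :
    Xh e a c (r + 1) = Xh e a c (1 - p) := by
  set d := dd z c with hd
  set Θ := θ (DA ^ E') with hΘ
  have hd2 : d ^ 2 = c ^ r * Θ * (c ^ r)⁻¹ := by
    rw [← hEE, pow_mul, C.hD, hD, conj_pow, hΘ, map_pow]
  have hx00 : θ (cycA 0) = x0 a c := by rw [hθ, xl_zero]
  have hcond : Θ * x0 a c * Θ⁻¹ = xl p z a c (1 - (r : ZMod p)) := by
    rw [← hθ, ← hDA, ← hx00, hΘ, map_mul, map_mul, map_inv]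
  have hlab : xl p z a c (1 - (r : ZMod p)) = Xh e a c (1 - r) := by
    have h1 := C.xl_eq_Xh hg2 (r - 1) (by omega)
    have h2 : ((p - (r - 1) : ℕ) : ZMod p) = 1 - (r : ZMod p) := by
      rw [Nat.cast_sub (by omega), Nat.cast_sub hr1]
      simp
    have h3 : -(((r - 1 : ℕ)) : ℤ) = 1 - r := by
      rw [Nat.cast_sub hr1]; push_cast; ring
    rw [h2, h3] at h1
    exact h1
  have hXr : d ^ 2 * Xh e a c r * (d ^ 2)⁻¹ = Xh e a c 1 := by
    have h1 : Xh e a c r = c ^ r * x0 a c ^ ((sg e r : ℤˣ) : ℤ) * (c ^ r)⁻¹ := by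
      simp [Xh]
    have h2 : c ^ r * Xh e a c (1 - r) * (c ^ r)⁻¹ = Xh e a c 1 ^ ((sg e r : ℤˣ) : ℤ) := by
      have := conj_Xh e a c r (1 - r)
      simpa using this
    rw [hd2, h1]
    calc c ^ r * Θ * (c ^ r)⁻¹ * (c ^ r * x0 a c ^ ((sg e r : ℤˣ) : ℤ) * (c ^ r)⁻¹) * (c ^ r * Θ * (c ^ r)⁻¹)⁻¹
        = c ^ r * (Θ * x0 a c ^ ((sg e r : ℤˣ) : ℤ) * Θ⁻¹) * (c ^ r)⁻¹ := by group
      _ = c ^ r * (Xh e a c (1 - r)) ^ ((sg e r : ℤˣ) : ℤ) * (c ^ r)⁻¹ := by
          rw [← conj_zpow, hcond, hlab]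
      _ = (c ^ r * Xh e a c (1 - r) * (c ^ r)⁻¹) ^ ((sg e r : ℤˣ) : ℤ) := by rw [conj_zpow]
      _ = Xh e a c 1 := by rw [h2, zpow_unit_unit]
  have hax : d * x0 a c * d⁻¹ = a := by
    rw [C.x0_eq, ← hd]; group
  have hX1 : Xh e a c 1 = (d * x0 a c * d⁻¹) ^ (e : ℤ) := by
    rw [hax]
    calc Xh e a c 1 = (Xh e a c 1 ^ (e : ℤ)) ^ (e : ℤ) := (zpow_unit_unit e _).symm
      _ = a ^ (e : ℤ) := by rw [a_eq]
  have hdX : d * Xh e a c r * d⁻¹ = x0 a c ^ (e : ℤ) := by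
    have h1 : d * (d * Xh e a c r * d⁻¹) * d⁻¹ = d * x0 a c ^ (e : ℤ) * d⁻¹ := by
      rw [← conj_zpow, ← hX1, ← hXr, sq]; group
    exact mul_left_cancel (mul_right_cancel h1)
  have hc : c = z * d := by simp [hd, dd]
  have hcX : c * Xh e a c r * c⁻¹ = xl p z a c 1 ^ (e : ℤ) := by
    have h1 : c * Xh e a c r * c⁻¹ = z * (d * Xh e a c r * d⁻¹) * z⁻¹ := by
      rw [hc]; group
    have h2 : z * x0 a c * z⁻¹ = xl p z a c 1 := by
      rw [← xl_zero (p := p) (z := z), C.xl_succ, zero_add]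
    rw [h1, hdX, ← conj_zpow, h2]
  have h3 : Xh e a c ((r : ℤ) + 1) = xl p z a c 1 := by
    apply zpow_unit_inj e
    rw [← c_conj_Xh, hcX]
  have h4 : xl p z a c 1 = Xh e a c (1 - p) := by
    have hp1 : 1 ≤ p := hne.pos
    have h1 := C.xl_eq_Xh hg2 (p - 1) (by omega)
    have h2 : ((p - (p - 1) : ℕ) : ZMod p) = 1 := by
      rw [show p - (p - 1) = 1 by omega]; simp
    have h5 : -(((p - 1 : ℕ)) : ℤ) = 1 - p := by
      rw [Nat.cast_sub hp1]; push_cast; ring
    rw [h2, h5] at h1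
    exact h1
  rw [h3, h4]

theorem periodic {m : ℤ} {r' q' : ℤ} (h : Xh e a c r' = Xh e a c q') (hm : m = r' - q') (k : ℤ) :
    Xh e a c (k + m) = Xh e a c k := by
  have h1 := conj_Xh e a c (k - q') r'
  have h2 := conj_Xh e a c (k - q') q'
  rw [h] at h1
  have h3 := h1.symm.trans h2
  have h4 := zpow_unit_inj _ h3
  have h5 : r' + (k - q') = k + m := by rw [hm]; ring
  have h6 : q' + (k - q') = k := by ring
  rwa [h5, h6] at h4

theorem periodic' {m : ℤ} (hper : ∀ k, Xh e a c (k + m) = Xh e a c k) (k t : ℤ) :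
    Xh e a c (k + m * t) = Xh e a c k := by
  induction t using Int.induction_on with
  | zero => simp
  | succ i ih =>
    rw [mul_add, mul_one, ← add_assoc, hper, ih]
  | pred i ih =>
    have := hper (k + m * (-(i : ℤ) - 1))
    rw [← this, ← ih]
    congr 1
    ring

theorem main (C : Core p r g e eh E z a c Wh WD) (hr1 : 1 ≤ r) (hr2 : r + 1 ≤ p)
    (hg1 : (g : ZMod p) ≠ 1) (hg2 : ∀ u : ZMod p, u ≠ 0 → ∃ k : ℕ, u = (g : ZMod p) ^ k)
    (E' : ℕ) (hEE : E * E' = 2)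
    (zA hA DA : alternatingGroup (ZMod p ⊕ Bool)) (hzA1 : zA ^ p = 1)
    (hzA2 : ∀ i, zA * cycA i * zA⁻¹ = cycA (i + 1)) (hhA2 : hA * zA * hA⁻¹ = zA ^ g)
    (hWh : FreeGroup.lift cycA Wh = hA) (hWD : FreeGroup.lift cycA WD = DA)
    (hDA : (DA ^ E') * cycA 0 * (DA ^ E')⁻¹ = cycA (1 - (r : ZMod p))) :
    Finite (Subgroup.closure ({z * a, c} : Set Γ)) ∧
      2 * Nat.card (Subgroup.closure ({z * a, c} : Set Γ)) ≤ E * (p + r + 2).factorial := by
  classical
  obtain ⟨θ, hθ⟩ := exists_theta (xl p z a c) (C.isCar hg2)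
  have hev : ∀ W, ev p z a c W = θ (FreeGroup.lift cycA W) := by
    intro W
    have : ev p z a c = θ.comp (FreeGroup.lift cycA) := by
      ext i; simp [ev, hθ]
    rw [this]; rfl
  have hH : ev p z a c Wh = θ hA := by rw [hev, hWh]
  have hD : ev p z a c WD = θ DA := by rw [hev, hWD]
  have hzθ := C.z_eq θ hθ zA hA hzA1 hzA2 hhA2 hH hg1
  have hwrap := C.wrap hg2 θ hθ hr1 (by omega) E' hEE DA hD hDA
  set m : ℕ := p + r with hm
  have hper : ∀ k, Xh e a c (k + m) = Xh e a c k := by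
    intro k
    exact periodic hwrap (by rw [hm]; push_cast; ring) k
  have hper' := periodic' hper
  -- the labelling on `Fin m`
  let xh : Fin m → Γ := fun k => Xh e a c ((k : ℕ) : ℤ)
  have hnat : ∀ i j : ℕ, i < j → j < m → (Xh e a c i * Xh e a c j) ^ 2 = 1 := by
    intro i j hij hjm
    by_cases ht : j - i < p
    · have := C.pair_Xh hg2 (i : ℤ) (j - i) (by omega) ht
      rwa [show (i : ℤ) + ((j - i : ℕ) : ℤ) = j by rw [Nat.cast_sub hij.le]; ring] at this
    · have h1 : Xh e a c j = Xh e a c ((j : ℤ) - m) := by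
        have := hper ((j : ℤ) - m)
        rw [sub_add_cancel] at this; exact this
      have := C.pair_Xh hg2 ((j : ℤ) - m) (m - (j - i)) (by omega) (by omega)
      have h2 : ((j : ℤ) - m) + ((m - (j - i) : ℕ) : ℤ) = i := by
        rw [Nat.cast_sub (by omega), Nat.cast_sub hij.le]; ring
      rw [h2, ← h1] at this
      exact pair_symm this
  have hcar : IsCar xh := by
    constructor
    · intro i; exact C.Xh_cube _
    · intro i j hij
      have hij' : (i : ℕ) ≠ j := fun h => hij (Fin.ext h)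
      rcases Nat.lt_or_gt_of_ne hij' with h | h
      · exact hnat i j h j.2
      · exact pair_symm (hnat j i h i.2)
  obtain ⟨hfin, hcard⟩ := card_closure_le xh hcar Finset.univ
  set Xc := Subgroup.closure (xh '' ((Finset.univ : Finset (Fin m)) : Set (Fin m))) with hXc
  simp only [Finset.card_univ, Fintype.card_fin] at hcard
  have hmpos : 0 < m := by omega
  have hmem : ∀ k : ℤ, Xh e a c k ∈ Xc := by
    intro k
    have h1 : Xh e a c k = Xh e a c (k % m) := by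
      conv_lhs => rw [← Int.emod_add_mul_ediv k m]
      exact hper' _ _
    have h2 : 0 ≤ k % (m : ℤ) := Int.emod_nonneg _ (by omega)
    have h3 : k % (m : ℤ) < m := Int.emod_lt_of_pos _ (by omega)
    rw [h1]
    have h4 : xh ⟨(k % (m : ℤ)).toNat, by omega⟩ ∈ Xc :=
      Subgroup.subset_closure ⟨_, by simp, rfl⟩
    have h5 : xh ⟨(k % (m : ℤ)).toNat, by omega⟩ = Xh e a c (k % m) := by
      simp only [xh]
      congr 1
      omega
    rwa [h5] at h4
  have hxl : ∀ i : ZMod p, xl p z a c i ∈ Xc := by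
    intro i
    by_cases hi : i = 0
    · subst hi
      rw [xl_zero, ← Xh_zero e a c]
      exact hmem 0
    · have h1 : i.val ≠ 0 := by
        rwa [Ne, ZMod.val_eq_zero]
      have h2 : i.val < p := ZMod.val_lt i
      have h3 := C.xl_eq_Xh hg2 (p - i.val) (by omega)
      have h4 : p - (p - i.val) = i.val := by omega
      rw [h4, ZMod.natCast_zmod_val] at h3
      rw [h3]
      exact hmem _
  have hθmem : ∀ u, θ u ∈ Xc := by
    intro u
    have hle : (⊤ : Subgroup (alternatingGroup (ZMod p ⊕ Bool))) ≤ Xc.comap θ := by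
      rw [← closure_cycA, Subgroup.closure_le]
      rintro _ ⟨i, rfl⟩
      simp only [SetLike.mem_coe, Subgroup.mem_comap]
      rw [hθ]
      exact hxl i
    exact hle (Subgroup.mem_top u)
  have hzmem : z ∈ Xc := by rw [hzθ]; exact hθmem _
  have hamem : a ∈ Xc := by
    rw [← a_eq e a c]
    exact Xc.zpow_mem (hmem 1) _
  have hymem : z * a ∈ Xc := Xc.mul_mem hzmem hamem
  -- `c` normalizes `Xc`
  have hcn : ∀ u ∈ Xc, c * u * c⁻¹ ∈ Xc := by
    have hle : Xc ≤ Xc.comap (MulAut.conj c).toMonoidHom := by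
      rw [hXc, Subgroup.closure_le]
      rintro _ ⟨k, -, rfl⟩
      simp only [SetLike.mem_coe, Subgroup.mem_comap, MulEquiv.coe_toMonoidHom, MulAut.conj_apply]
      rw [← hXc]
      simp only [xh]
      rw [c_conj_Xh]
      exact Xc.zpow_mem (hmem _) _
    intro u hu
    exact hle hu
  have hcn' : ∀ u ∈ Xc, c⁻¹ * u * c ∈ Xc := by
    have hle : Xc ≤ Xc.comap (MulAut.conj c⁻¹).toMonoidHom := by
      rw [hXc, Subgroup.closure_le]
      rintro _ ⟨k, -, rfl⟩
      simp only [SetLike.mem_coe, Subgroup.mem_comap, MulEquiv.coe_toMonoidHom, MulAut.conj_apply,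
        inv_inv]
      rw [← hXc]
      simp only [xh]
      have h1 := c_conj_Xh e a c (((k : ℕ) : ℤ) - 1)
      rw [sub_add_cancel] at h1
      have h2 : Xh e a c ((k : ℕ) : ℤ) = (c * Xh e a c (((k : ℕ) : ℤ) - 1) * c⁻¹) ^ (e : ℤ) := by
        rw [h1, zpow_unit_unit]
      rw [h2, conj_zpow]
      have h3 : c⁻¹ * (c * Xh e a c (((k : ℕ) : ℤ) - 1) ^ (e : ℤ) * c⁻¹) * c =
          Xh e a c (((k : ℕ) : ℤ) - 1) ^ (e : ℤ) := by group
      rw [h3]
      exact Xc.zpow_mem (hmem _) _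
    intro u hu
    simpa [Subgroup.mem_comap, MulAut.conj_apply] using hle hu
  have hcrn : ∀ (j : ℕ), ∀ u ∈ Xc, c ^ j * u * (c ^ j)⁻¹ ∈ Xc := by
    intro j
    induction j with
    | zero => intro u hu; simpa using hu
    | succ j ih =>
      intro u hu
      have : c ^ (j + 1) * u * (c ^ (j + 1))⁻¹ = c * (c ^ j * u * (c ^ j)⁻¹) * c⁻¹ := by
        rw [pow_succ']; group
      rw [this]
      exact hcn _ (ih u hu)
  have hdE : dd z c ^ E ∈ Xc := by
    rw [C.hD, hD]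
    exact hcrn r _ (hθmem _)
  have hdn : ∀ u ∈ Xc, dd z c * u * (dd z c)⁻¹ ∈ Xc := by
    intro u hu
    have : dd z c * u * (dd z c)⁻¹ = z⁻¹ * (c * u * c⁻¹) * z := by
      simp only [dd]; group
    rw [this]
    exact Xc.mul_mem (Xc.mul_mem (Xc.inv_mem hzmem) (hcn u hu)) hzmem
  have hE : E = 1 ∨ E = 2 := by
    have : E ∣ 2 := ⟨E', hEE.symm⟩
    exact (Nat.dvd_prime Nat.prime_two).1 this
  have hcz : c = z * dd z c := by simp [dd]
  rcases hE with rfl | rfl
  · -- `c ∈ Xc`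
    have hdmem : dd z c ∈ Xc := by simpa using hdE
    have hcmem : c ∈ Xc := by rw [hcz]; exact Xc.mul_mem hzmem hdmem
    have hle : Subgroup.closure ({z * a, c} : Set Γ) ≤ Xc := by
      rw [Subgroup.closure_le]
      rintro _ (rfl | rfl)
      · exact hymem
      · exact hcmem
    haveI : Finite Xc := hfin
    have hf : Finite (Subgroup.closure ({z * a, c} : Set Γ)) :=
      Finite.of_injective _ (Subgroup.inclusion_injective hle)
    refine ⟨hf, ?_⟩
    have h1 : Nat.card (Subgroup.closure ({z * a, c} : Set Γ)) ≤ Nat.card Xc :=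
      Nat.card_le_card_of_injective _ (Subgroup.inclusion_injective hle)
    omega
  · -- index two
    have hc2 : c * c ∈ Xc := by
      have : c * c = z * (dd z c * z * (dd z c)⁻¹) * dd z c ^ 2 := by
        calc c * c = (z * dd z c) * (z * dd z c) := by rw [← hcz]
          _ = _ := by simp only [sq]; group
      rw [this]
      exact Xc.mul_mem (Xc.mul_mem hzmem (hdn z hzmem)) hdE
    have hc2' : c⁻¹ * c⁻¹ ∈ Xc := by
      have := Xc.inv_mem hc2
      rwa [mul_inv_rev] at this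
    have hcov : ∀ w ∈ Subgroup.closure ({z * a, c} : Set Γ), w ∈ Xc ∨ c⁻¹ * w ∈ Xc := by
      intro w hw
      induction hw using Subgroup.closure_induction_left with
      | one => exact Or.inl Xc.one_mem
      | mul_left x hx w hw ih =>
        rcases hx with hx | hx
        · rw [hx]
          rcases ih with ih | ih
          · exact Or.inl (Xc.mul_mem hymem ih)
          · right
            have : c⁻¹ * (z * a * w) = (c⁻¹ * (z * a) * c) * (c⁻¹ * w) := by group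
            rw [this]
            exact Xc.mul_mem (hcn' _ hymem) ih
        · rw [Set.mem_singleton_iff] at hx
          rw [hx]
          rcases ih with ih | ih
          · right
            have : c⁻¹ * (c * w) = w := by group
            rwa [this]
          · left
            have : c * w = (c * c) * (c⁻¹ * w) := by group
            rw [this]
            exact Xc.mul_mem hc2 ih
      | inv_mul_cancel x hx w hw ih =>
        rcases hx with hx | hx
        · rw [hx]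
          rcases ih with ih | ih
          · exact Or.inl (Xc.mul_mem (Xc.inv_mem hymem) ih)
          · right
            have : c⁻¹ * ((z * a)⁻¹ * w) = (c⁻¹ * (z * a)⁻¹ * c) * (c⁻¹ * w) := by group
            rw [this]
            exact Xc.mul_mem (hcn' _ (Xc.inv_mem hymem)) ih
        · rw [Set.mem_singleton_iff] at hx
          rw [hx]
          rcases ih with ih | ih
          · right
            have : c⁻¹ * (c⁻¹ * w) = (c⁻¹ * c⁻¹) * w := by group
            rw [this]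
            exact Xc.mul_mem hc2' ih
          · exact Or.inl ih
    haveI : Finite Xc := hfin
    -- covering by two cosets
    let f : Xc × Bool → Γ := fun q => if q.2 then c * q.1 else q.1
    have hsub : ((Subgroup.closure ({z * a, c} : Set Γ) : Subgroup Γ) : Set Γ) ⊆ Set.range f := by
      intro w hw
      rcases hcov w hw with h | h
      · exact ⟨(⟨w, h⟩, false), by simp [f]⟩
      · exact ⟨(⟨c⁻¹ * w, h⟩, true), by simp [f]⟩
    have hrf : (Set.range f).Finite := Set.finite_range f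
    have hf : Finite (Subgroup.closure ({z * a, c} : Set Γ)) :=
      (hrf.subset hsub).to_subtype
    refine ⟨hf, ?_⟩
    have h1 : Nat.card (Subgroup.closure ({z * a, c} : Set Γ)) ≤ 2 * Nat.card Xc := by
      have h0 : Nat.card (Subgroup.closure ({z * a, c} : Set Γ)) =
          ((Subgroup.closure ({z * a, c} : Set Γ) : Subgroup Γ) : Set Γ).ncard :=
        Nat.card_coe_set_eq _
      rw [h0]
      refine (Set.ncard_le_ncard hsub hrf).trans ?_
      have h2 : (Set.range f).ncard ≤ Nat.card (Xc × Bool) := by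
        rw [← Set.image_univ]
        refine (Set.ncard_image_le Set.finite_univ).trans ?_
        rw [Set.ncard_univ]
      rw [Nat.card_prod] at h2
      simpa [mul_comm] using h2
    omega

end Core

end Cfsg.Agent.Lib.Pres.Glue
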