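import Mathlib
import Cfsg.Agent.Lib.Pres.Carmichael
import Cfsg.Agent.Lib.Pres.Glue

/-!
# The permutation model for the two-generator presentations of `A_n` and `S_n`
-/

set_option autoImplicit false
set_option linter.unusedSectionVars false
set_option linter.unusedSimpArgs false
set_option linter.unusedVariables false

namespace Cfsg.Agent.Lib.Pres.Model

open Equiv Equiv.Perm Cfsg.Agent.Lib.Pres.Carmichael Cfsg.Agent.Lib.Pres.Glue

/-- The twist on `Bool`. -/
def tw (δ : Bool) : Perm Bool := if δ then swap false true else 1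

/-- The sign attached to a twist. -/
def ee (δ : Bool) : ℤˣ := if δ then -1 else 1

theorem tw_tw (δ b : Bool) : tw δ (tw δ b) = b := by
  revert δ b; decide

theorem tw_comm (δ δ' b : Bool) : tw δ (tw δ' b) = tw δ' (tw δ b) := by
  revert δ δ' b; decide

theorem sign_tw (δ : Bool) : sign (tw δ) = ee δ := by
  cases δ
  · simp [tw, ee]
  · simp [tw, ee]

theorem conj_tw {α : Type*} [DecidableEq α] (G : Perm (α ⊕ Bool)) {q q' : α} (δ : Bool)
    (hq : G (Sum.inl q) = Sum.inl q') (hb : ∀ b, G (Sum.inr b) = Sum.inr (tw δ b)) :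
    G * cyc q * G⁻¹ = cyc q' ^ ((ee δ : ℤˣ) : ℤ) := by
  cases δ
  · have := conj_cyc G hq (hb false) (hb true)
    simpa [ee] using this
  · have := conj_cyc_swap G hq (hb false) (hb true)
    simpa [ee] using this

section Labels

variable {p : ℕ} [hpf : Fact p.Prime] [hne : NeZero p]

/-- Translation on the labels. -/
def zP : Perm (ZMod p ⊕ Bool) := Equiv.Perm.sumCongr (Equiv.addRight 1) 1

theorem zP_inl (i : ZMod p) : zP (Sum.inl i) = Sum.inl (i + 1) := rfl

theorem zP_inr (b : Bool) : (zP : Perm (ZMod p ⊕ Bool)) (Sum.inr b) = Sum.inr b := rfl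

theorem zP_pow_inl (k : ℕ) (i : ZMod p) : (zP ^ k) (Sum.inl i) = Sum.inl (i + k) := by
  induction k with
  | zero => simp
  | succ k ih =>
    rw [pow_succ', Perm.mul_apply, ih, zP_inl]
    push_cast
    rw [add_assoc]

theorem zP_pow_inr (k : ℕ) (b : Bool) : ((zP : Perm (ZMod p ⊕ Bool)) ^ k) (Sum.inr b) = Sum.inr b := by
  induction k with
  | zero => simp
  | succ k ih => rw [pow_succ', Perm.mul_apply, ih, zP_inr]

theorem zP_pow_self : (zP : Perm (ZMod p ⊕ Bool)) ^ p = 1 := by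
  ext ω
  rcases ω with i | b
  · simp [zP_pow_inl]
  · simp [zP_pow_inr]

theorem sign_of_pow_odd {β : Type*} [Fintype β] [DecidableEq β] {x : Perm β} {k : ℕ} (hk : Odd k)
    (h : x ^ k = 1) : sign x = 1 := by
  have h1 : sign x ^ k = 1 := by rw [← map_pow, h, map_one]
  rcases Int.units_eq_one_or (sign x) with h2 | h2
  · exact h2
  · rw [h2, hk.neg_one_pow] at h1
    exact absurd h1 (by decide)

theorem sign_zP (hp2 : p ≠ 2) : sign (zP : Perm (ZMod p ⊕ Bool)) = 1 :=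
  sign_of_pow_odd (hpf.out.odd_of_ne_two hp2) zP_pow_self

theorem zP_conj (i : ZMod p) : zP * cyc i * zP⁻¹ = cyc (i + 1) :=
  conj_cyc zP rfl rfl rfl

theorem zP_pow_conj (k : ℕ) (i : ZMod p) : zP ^ k * cyc i * (zP ^ k)⁻¹ = cyc (i + k) :=
  conj_cyc _ (zP_pow_inl k i) (zP_pow_inr k _) (zP_pow_inr k _)

/-- Multiplication by a unit. -/
noncomputable def mG (u : (ZMod p)ˣ) : Perm (ZMod p) := Units.mulLeft u

theorem mG_apply (u : (ZMod p)ˣ) (i : ZMod p) : mG u i = u * i := rfl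

/-- The parity of multiplication by a unit. -/
noncomputable def bh (u : (ZMod p)ˣ) : Bool := decide (sign (mG u) = -1)

theorem sign_mG (u : (ZMod p)ˣ) : sign (mG u) = ee (bh u) := by
  rcases Int.units_eq_one_or (sign (mG u)) with h | h
  · simp [bh, ee, h]
  · simp [bh, ee, h]

/-- Multiplication by a unit, corrected to be even. -/
noncomputable def hP (u : (ZMod p)ˣ) : Perm (ZMod p ⊕ Bool) := Equiv.Perm.sumCongr (mG u) (tw (bh u))

theorem hP_inl (u : (ZMod p)ˣ) (i : ZMod p) : hP u (Sum.inl i) = Sum.inl (u * i) := rfl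

theorem hP_inr (u : (ZMod p)ˣ) (b : Bool) : hP u (Sum.inr b) = Sum.inr (tw (bh u) b) := rfl

theorem sign_hP (u : (ZMod p)ˣ) : sign (hP u) = 1 := by
  rw [hP, sign_sumCongr, sign_mG, sign_tw]
  cases bh u <;> decide

theorem hP_conj (u : (ZMod p)ˣ) (g : ℕ) (hg : (g : ZMod p) = u) :
    hP u * zP * (hP u)⁻¹ = zP ^ g := by
  rw [mul_inv_eq_iff_eq_mul]
  ext ω
  rcases ω with i | b
  · simp only [Perm.mul_apply, zP_inl, hP_inl, zP_pow_inl, hg]
    congr 1
    ring
  · simp only [Perm.mul_apply, zP_inr, hP_inr, zP_pow_inr]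

end Labels

section Pos

variable (p r : ℕ) [hpf : Fact p.Prime] [hne : NeZero p] [hne2 : NeZero (p + r)]

/-- The positions of the labels. -/
def pt (i : ZMod p) : ZMod (p + r) := if i = 0 then 0 else ((r + i.val : ℕ) : ZMod (p + r))

variable {p r}

theorem cast_inj {a b : ℕ} (ha : a < p + r) (hb : b < p + r)
    (h : (a : ZMod (p + r)) = (b : ZMod (p + r))) : a = b := by
  rw [ZMod.natCast_eq_natCast_iff'] at h
  rwa [Nat.mod_eq_of_lt ha, Nat.mod_eq_of_lt hb] at h

theorem pt_zero : pt p r 0 = 0 := by simp [pt]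

theorem pt_of_ne {i : ZMod p} (hi : i ≠ 0) : pt p r i = ((r + i.val : ℕ) : ZMod (p + r)) := by
  simp [pt, hi]

theorem val_pos_of_ne {i : ZMod p} (hi : i ≠ 0) : 0 < i.val := by
  rw [Nat.pos_iff_ne_zero, Ne, ZMod.val_eq_zero]
  exact hi

theorem pt_ne_zero {i : ZMod p} (hi : i ≠ 0) : pt p r i ≠ 0 := by
  rw [pt_of_ne hi]
  intro h
  have h1 : ((r + i.val : ℕ) : ZMod (p + r)) = ((0 : ℕ) : ZMod (p + r)) := by simpa using h
  have := cast_inj (by have := ZMod.val_lt i; omega) (by have := val_pos_of_ne hi; have := ZMod.val_lt i; omega) h1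
  have := val_pos_of_ne hi
  omega

theorem pt_inj : Function.Injective (pt p r) := by
  intro i j h
  by_cases hi : i = 0
  · by_cases hj : j = 0
    · rw [hi, hj]
    · rw [hi, pt_zero] at h
      exact absurd h.symm (pt_ne_zero hj)
  · by_cases hj : j = 0
    · rw [hj, pt_zero] at h
      exact absurd h (pt_ne_zero hi)
    · rw [pt_of_ne hi, pt_of_ne hj] at h
      have := cast_inj (by have := ZMod.val_lt i; omega) (by have := ZMod.val_lt j; omega) h
      apply ZMod.val_injective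
      omega

theorem pt_ne {k : ℕ} (h1 : 1 ≤ k) (h2 : k ≤ r) (i : ZMod p) :
    pt p r i ≠ (k : ZMod (p + r)) := by
  have hp : 0 < p := hpf.out.pos
  by_cases hi : i = 0
  · rw [hi, pt_zero]
    intro h
    have h3 : ((0 : ℕ) : ZMod (p + r)) = (k : ZMod (p + r)) := by simpa using h
    have := cast_inj (by omega) (by omega) h3
    omega
  · rw [pt_of_ne hi]
    intro h
    have := cast_inj (by have := ZMod.val_lt i; omega) (by omega) h
    have := val_pos_of_ne hi
    omega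

theorem pt_cases (q : ZMod (p + r)) :
    (∃ k : ℕ, k ≤ r ∧ q = (k : ZMod (p + r))) ∨ (∃ i : ZMod p, i ≠ 0 ∧ q = pt p r i) := by
  have hq : ((q.val : ℕ) : ZMod (p + r)) = q := ZMod.natCast_zmod_val q
  by_cases h : q.val ≤ r
  · exact Or.inl ⟨q.val, h, hq.symm⟩
  · right
    have h1 : q.val < p + r := ZMod.val_lt q
    have h2 : ((q.val - r : ℕ) : ZMod p).val = q.val - r := by
      rw [ZMod.val_natCast, Nat.mod_eq_of_lt (by omega)]
    have h3 : ((q.val - r : ℕ) : ZMod p) ≠ 0 := by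
      intro h4
      rw [h4, ZMod.val_zero] at h2
      omega
    refine ⟨_, h3, ?_⟩
    rw [pt_of_ne h3, h2, Nat.add_sub_cancel' (by omega), hq]

theorem pt_succ {i : ZMod p} (hi : i ≠ 0) : pt p r i + 1 = pt p r (i + 1) := by
  have hp1 : 1 < p := hpf.out.one_lt
  haveI : Fact (1 < p) := ⟨hp1⟩
  have hlt := ZMod.val_lt i
  by_cases h : i.val + 1 = p
  · have h1 : i + 1 = 0 := by
      have h2 : ((i.val + 1 : ℕ) : ZMod p) = 0 := by rw [h]; simp
      push_cast at h2
      rwa [ZMod.natCast_zmod_val] at h2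
    rw [h1, pt_zero, pt_of_ne hi]
    have h3 : ((r + i.val + 1 : ℕ) : ZMod (p + r)) = 0 := by
      rw [show r + i.val + 1 = p + r by omega]; simp
    push_cast at h3 ⊢
    exact h3
  · have h1 : (i + 1).val = i.val + 1 := by
      rw [ZMod.val_add, ZMod.val_one, Nat.mod_eq_of_lt (by omega)]
    have h2 : i + 1 ≠ 0 := by
      intro h3
      rw [h3, ZMod.val_zero] at h1
      omega
    rw [pt_of_ne hi, pt_of_ne h2, h1]
    push_cast
    ring

theorem pt_one : pt p r 1 = ((r + 1 : ℕ) : ZMod (p + r)) := by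
  have hp1 : 1 < p := hpf.out.one_lt
  haveI : Fact (1 < p) := ⟨hp1⟩
  rw [pt_of_ne one_ne_zero, ZMod.val_one]

theorem pt_one_sub (hr1 : 1 ≤ r) (hr2 : r + 1 ≤ p) :
    pt p r (1 - (r : ZMod p)) = 1 - (r : ZMod (p + r)) := by
  by_cases h1 : r = 1
  · subst h1
    simp [pt_zero]
  · have h2 : ((p + 1 - r : ℕ) : ZMod p) = 1 - (r : ZMod p) := by
      rw [Nat.cast_sub (by omega)]
      push_cast
      simp
    have h3 : ((p + 1 - r : ℕ) : ZMod p).val = p + 1 - r := by
      rw [ZMod.val_natCast, Nat.mod_eq_of_lt (by omega)]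
    have h4 : ((p + 1 - r : ℕ) : ZMod p) ≠ 0 := by
      intro h5
      rw [h5, ZMod.val_zero] at h3
      omega
    rw [← h2, pt_of_ne h4, h3, show r + (p + 1 - r) = p + 1 by omega]
    have h5 : ((p + r : ℕ) : ZMod (p + r)) = 0 := by simp
    push_cast at h5 ⊢
    linear_combination h5

/-- The embedding of labelled points in positions. -/
def iota : (ZMod p ⊕ Bool) ↪ (ZMod (p + r) ⊕ Bool) :=
  ⟨Sum.map (pt p r) id, Function.Injective.sumMap pt_inj Function.injective_id⟩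

theorem iota_inl (i : ZMod p) : iota (p := p) (r := r) (Sum.inl i) = Sum.inl (pt p r i) := rfl

theorem iota_inr (b : Bool) : iota (p := p) (r := r) (Sum.inr b) = Sum.inr b := rfl

theorem notMem_range_iota {k : ℕ} (h1 : 1 ≤ k) (h2 : k ≤ r) :
    (Sum.inl (k : ZMod (p + r)) : ZMod (p + r) ⊕ Bool) ∉ Set.range (iota (p := p) (r := r)) := by
  rintro ⟨x, hx⟩
  rcases x with i | b
  · rw [iota_inl, Sum.inl.injEq] at hx
    exact pt_ne h1 h2 i hx
  · rw [iota_inr] at hx
    simp at hx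

variable (p r) in
/-- Extension by the identity to positions. -/
noncomputable def EE : Perm (ZMod p ⊕ Bool) →* Perm (ZMod (p + r) ⊕ Bool) :=
  viaEmbeddingHom (iota (p := p) (r := r))

theorem EE_inl (L : Perm (ZMod p ⊕ Bool)) (i : ZMod p) :
    EE p r L (Sum.inl (pt p r i)) = iota (L (Sum.inl i)) := by
  rw [EE, viaEmbeddingHom_apply, ← iota_inl, viaEmbedding_apply]

theorem EE_inr (L : Perm (ZMod p ⊕ Bool)) (b : Bool) :
    EE p r L (Sum.inr b) = iota (L (Sum.inr b)) := by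
  rw [EE, viaEmbeddingHom_apply, ← iota_inr, viaEmbedding_apply]

theorem EE_fix (L : Perm (ZMod p ⊕ Bool)) {k : ℕ} (h1 : 1 ≤ k) (h2 : k ≤ r) :
    EE p r L (Sum.inl (k : ZMod (p + r))) = Sum.inl (k : ZMod (p + r)) := by
  rw [EE, viaEmbeddingHom_apply, viaEmbedding_apply_of_notMem _ _ _ (notMem_range_iota h1 h2)]

theorem EE_injective : Function.Injective (EE p r) := viaEmbeddingHom_injective _

theorem sign_EE (L : Perm (ZMod p ⊕ Bool)) : sign (EE p r L) = sign L := by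
  classical
  rw [EE, viaEmbeddingHom_apply, viaEmbedding]
  convert sign_extendDomain L _

theorem exists_lift (G : Perm (ZMod (p + r) ⊕ Bool))
    (h : ∀ x, x ∉ Set.range (iota (p := p) (r := r)) → G x = x) :
    ∃ L, EE p r L = G := by
  classical
  set S : Set (ZMod (p + r) ⊕ Bool) := Set.range (iota (p := p) (r := r)) with hS
  have hinv : ∀ x, G x ∈ S ↔ x ∈ S := by
    intro x
    constructor
    · intro hx
      by_contra hx'
      have := h x hx'
      rw [this] at hx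
      exact hx' hx
    · intro hx
      by_contra hx'
      have h1 := h (G x) hx'
      have h2 := G.injective h1
      rw [h2] at hx'
      exact hx' hx
  let f : ZMod p ⊕ Bool ≃ S := Equiv.ofInjective _ (iota (p := p) (r := r)).injective
  let Gs : Perm S := G.subtypePerm (fun x => hinv x)
  refine ⟨f.symm.permCongr Gs, ?_⟩
  ext1 ω
  by_cases hω : ω ∈ S
  · obtain ⟨y, rfl⟩ := hω
    rw [EE, viaEmbeddingHom_apply, viaEmbedding_apply]
    have h3 : iota (f.symm.permCongr Gs y) = (f (f.symm.permCongr Gs y) : ZMod (p + r) ⊕ Bool) := rfl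
    rw [h3]
    simp [Equiv.permCongr_apply, f, Gs]
    rfl
  · rw [EE, viaEmbeddingHom_apply, viaEmbedding_apply_of_notMem _ _ _ hω, h ω hω]

theorem EE_cyc (i : ZMod p) : EE p r (cyc i) = cyc (pt p r i) := by
  ext1 ω
  rcases ω with q | b
  · by_cases hq : ∃ j, q = pt p r j
    · obtain ⟨j, rfl⟩ := hq
      rw [EE_inl]
      by_cases hj : j = i
      · subst hj
        rw [cyc_inl_self, cyc_inl_self]; rfl
      · rw [cyc_inl_of_ne hj, cyc_inl_of_ne (fun h => hj (pt_inj h))]; rfl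
    · have hq' : (Sum.inl q : ZMod (p + r) ⊕ Bool) ∉ Set.range (iota (p := p) (r := r)) := by
        rintro ⟨x, hx⟩
        rcases x with j | b
        · rw [iota_inl, Sum.inl.injEq] at hx
          exact hq ⟨j, hx.symm⟩
        · rw [iota_inr] at hx
          simp at hx
      rw [EE, viaEmbeddingHom_apply, viaEmbedding_apply_of_notMem _ _ _ hq',
        cyc_inl_of_ne (fun h => hq ⟨i, h⟩)]
  · rw [EE_inr]
    cases b
    · rw [cyc_inr_false, cyc_inr_false]; rfl
    · rw [cyc_inr_true, cyc_inr_true]; rfl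

variable (p r) in
/-- The element `z` in positions. -/
noncomputable def zT : Perm (ZMod (p + r) ⊕ Bool) := EE p r zP

theorem zT_pt (i : ZMod p) : zT p r (Sum.inl (pt p r i)) = Sum.inl (pt p r (i + 1)) := by
  rw [zT, EE_inl]; rfl

theorem zT_inr (b : Bool) : zT p r (Sum.inr b) = Sum.inr b := by
  rw [zT, EE_inr]; rfl

theorem zT_fix {k : ℕ} (h1 : 1 ≤ k) (h2 : k ≤ r) :
    zT p r (Sum.inl (k : ZMod (p + r))) = Sum.inl (k : ZMod (p + r)) :=
  EE_fix _ h1 h2

variable (p r) in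
/-- The element `c` in positions. -/
def cT (δ : Bool) : Perm (ZMod (p + r) ⊕ Bool) := Equiv.Perm.sumCongr (Equiv.addRight 1) (tw δ)

theorem cT_inl (δ : Bool) (q : ZMod (p + r)) : cT p r δ (Sum.inl q) = Sum.inl (q + 1) := rfl

theorem cT_inr (δ : Bool) (b : Bool) : cT p r δ (Sum.inr b) = Sum.inr (tw δ b) := rfl

theorem cT_pow_inl (δ : Bool) (k : ℕ) (q : ZMod (p + r)) :
    (cT p r δ ^ k) (Sum.inl q) = Sum.inl (q + k) := by
  induction k with
  | zero => simp
  | succ k ih =>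
    rw [pow_succ', Perm.mul_apply, ih, cT_inl]
    push_cast
    rw [add_assoc]

theorem cT_pow_inr (δ : Bool) (k : ℕ) (b : Bool) :
    ∃ b', (cT p r δ ^ k) (Sum.inr b) = Sum.inr b' := by
  induction k with
  | zero => exact ⟨b, by simp⟩
  | succ k ih =>
    obtain ⟨b', hb⟩ := ih
    exact ⟨tw δ b', by rw [pow_succ', Perm.mul_apply, hb, cT_inr]⟩

variable (p r) in
/-- The element `a` in positions. -/
def aT (δ : Bool) : Perm (ZMod (p + r) ⊕ Bool) := cT p r δ * cyc 0 * (cT p r δ)⁻¹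

theorem aT_eq (δ : Bool) : aT p r δ = cyc 1 ^ ((ee δ : ℤˣ) : ℤ) :=
  conj_tw _ δ (by rw [cT_inl, zero_add]) (fun b => cT_inr δ b)

variable (p r) in
/-- The element `d` in positions. -/
noncomputable def dT (δ : Bool) : Perm (ZMod (p + r) ⊕ Bool) := dd (zT p r) (cT p r δ)

theorem dT_lt (δ : Bool) {k : ℕ} (h : k < r) :
    dT p r δ (Sum.inl (k : ZMod (p + r))) = Sum.inl ((k + 1 : ℕ) : ZMod (p + r)) := by
  rw [dT, dd, Perm.mul_apply, cT_inl, Perm.inv_eq_iff_eq]
  push_cast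
  have := zT_fix (p := p) (r := r) (k := k + 1) (by omega) (by omega)
  push_cast at this
  exact this.symm

theorem dT_r (δ : Bool) (hr1 : 1 ≤ r) :
    dT p r δ (Sum.inl (r : ZMod (p + r))) = Sum.inl 0 := by
  rw [dT, dd, Perm.mul_apply, cT_inl, Perm.inv_eq_iff_eq]
  have h1 := zT_pt (p := p) (r := r) 0
  rw [pt_zero, zero_add, pt_one] at h1
  rw [h1]
  push_cast
  rfl

theorem dT_pt (δ : Bool) {i : ZMod p} (hi : i ≠ 0) :
    dT p r δ (Sum.inl (pt p r i)) = Sum.inl (pt p r i) := by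
  rw [dT, dd, Perm.mul_apply, cT_inl, Perm.inv_eq_iff_eq, zT_pt, pt_succ hi]

theorem dT_inr (δ : Bool) (b : Bool) : dT p r δ (Sum.inr b) = Sum.inr (tw δ b) := by
  rw [dT, dd, Perm.mul_apply, cT_inr, Perm.inv_eq_iff_eq, zT_inr]

theorem dT_pow_pt (δ : Bool) {i : ZMod p} (hi : i ≠ 0) (E : ℕ) :
    (dT p r δ ^ E) (Sum.inl (pt p r i)) = Sum.inl (pt p r i) := by
  induction E with
  | zero => simp
  | succ E ih => rw [pow_succ', Perm.mul_apply, ih, dT_pt δ hi]

theorem x0_T (δ : Bool) : x0 (aT p r δ) (cT p r δ) = cyc 0 := by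
  rw [x0, aT]; group

theorem xl_T (δ : Bool) (i : ZMod p) :
    xl p (zT p r) (aT p r δ) (cT p r δ) i = cyc (pt p r i) := by
  rw [xl, x0_T, ← pt_zero (p := p) (r := r), ← EE_cyc, zT, ← map_pow, ← map_inv, ← map_mul, ← map_mul,
    zP_pow_conj, zero_add, ZMod.natCast_zmod_val, EE_cyc]

theorem ev_T (δ : Bool) (W : FreeGroup (ZMod p)) :
    ev p (zT p r) (aT p r δ) (cT p r δ) W = EE p r (FreeGroup.lift cyc W) := by
  have : ev p (zT p r) (aT p r δ) (cT p r δ) = (EE p r).comp (FreeGroup.lift cyc) := by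
    ext i
    simp [ev, xl_T, EE_cyc]
  rw [this]; rfl

/-- The element `G` of the wrap relation. -/
noncomputable def GT (δ : Bool) (E : ℕ) : Perm (ZMod (p + r) ⊕ Bool) :=
  (cT p r δ ^ r)⁻¹ * dT p r δ ^ E * cT p r δ ^ r

theorem GT_fix (hr2 : r + 1 ≤ p) (δ : Bool) (E : ℕ) {k : ℕ} (h1 : 1 ≤ k) (h2 : k ≤ r) :
    GT (p := p) (r := r) δ E (Sum.inl (k : ZMod (p + r))) = Sum.inl (k : ZMod (p + r)) := by
  have h3 : (k : ZMod (p + r)) + (r : ZMod (p + r)) = pt p r ((k : ℕ) : ZMod p) := by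
    have h4 : ((k : ℕ) : ZMod p).val = k := by
      rw [ZMod.val_natCast, Nat.mod_eq_of_lt (by omega)]
    have h5 : ((k : ℕ) : ZMod p) ≠ 0 := by
      intro h6
      rw [h6, ZMod.val_zero] at h4
      omega
    rw [pt_of_ne h5, h4]
    push_cast
    ring
  have h4 : ((k : ℕ) : ZMod p) ≠ 0 := by
    intro h6
    have h7 : ((k : ℕ) : ZMod p).val = k := by
      rw [ZMod.val_natCast, Nat.mod_eq_of_lt (by omega)]
    rw [h6, ZMod.val_zero] at h7
    omega
  rw [GT, Perm.mul_apply, Perm.mul_apply, cT_pow_inl, h3, dT_pow_pt δ h4, Perm.inv_eq_iff_eq,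
    cT_pow_inl, h3]

theorem GT_lift (hr2 : r + 1 ≤ p) (δ : Bool) (E : ℕ) :
    ∃ L, EE p r L = GT (p := p) (r := r) δ E := by
  apply exists_lift
  intro x hx
  rcases x with q | b
  · rcases pt_cases q with ⟨k, hk, rfl⟩ | ⟨i, hi, rfl⟩
    · by_cases h0 : k = 0
      · exfalso
        apply hx
        refine ⟨Sum.inl 0, ?_⟩
        rw [iota_inl, pt_zero, h0]
        simp
      · exact GT_fix hr2 δ E (by omega) hk
    · exfalso
      exact hx ⟨Sum.inl i, rfl⟩
  · exact absurd ⟨Sum.inr b, rfl⟩ hx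

theorem sign_GT (δ : Bool) (E : ℕ) :
    sign (GT (p := p) (r := r) δ E) = sign (dT p r δ ^ E) := by
  rw [GT, map_mul, map_mul, map_inv]
  have := mul_comm (sign (cT p r δ ^ r))⁻¹ (sign (dT p r δ ^ E))
  rw [this, mul_assoc, inv_mul_cancel, mul_one]

theorem GT_pow (δ : Bool) (E E' : ℕ) :
    GT (p := p) (r := r) δ E ^ E' = (cT p r δ ^ r)⁻¹ * dT p r δ ^ (E * E') * cT p r δ ^ r := by
  rw [pow_mul, GT]
  have := conj_pow (a := (cT p r δ ^ r)⁻¹) (b := dT p r δ ^ E) (i := E')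
  simpa using this

theorem GT_pow_zero (hr1 : 1 ≤ r) (δ : Bool) (E E' : ℕ) (hEE : E * E' = 2) :
    (GT (p := p) (r := r) δ E ^ E') (Sum.inl (pt p r 0)) = Sum.inl (1 - (r : ZMod (p + r))) := by
  rw [GT_pow, hEE, Perm.mul_apply, Perm.mul_apply, cT_pow_inl, pt_zero, zero_add,
    Perm.inv_eq_iff_eq, cT_pow_inl, sq, Perm.mul_apply, dT_r δ hr1]
  have h1 := dT_lt (p := p) (r := r) δ (k := 0) (by omega)
  simp only [Nat.cast_zero, zero_add, Nat.cast_one] at h1
  rw [h1]
  simp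

theorem GT_pow_inr (δ : Bool) (E E' : ℕ) (hEE : E * E' = 2) (b : Bool) :
    (GT (p := p) (r := r) δ E ^ E') (Sum.inr b) = Sum.inr b := by
  rw [GT_pow, hEE, Perm.mul_apply, Perm.mul_apply, Perm.inv_eq_iff_eq]
  obtain ⟨b', hb'⟩ := cT_pow_inr (p := p) (r := r) δ r b
  rw [hb', sq, Perm.mul_apply, dT_inr, dT_inr, tw_tw]

theorem main_data (hp3 : p ≠ 2) (hr1 : 1 ≤ r) (hr2 : r + 1 ≤ p) (δ : Bool) (u : (ZMod p)ˣ) (g : ℕ)
    (hg : (g : ZMod p) = u) (E E' : ℕ) (hEE : E * E' = 2) (hsign : sign (dT p r δ ^ E) = 1) :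
    ∃ (Wh WD : FreeGroup (ZMod p)) (hA DA zA : alternatingGroup (ZMod p ⊕ Bool)),
      FreeGroup.lift cycA Wh = hA ∧ FreeGroup.lift cycA WD = DA ∧
      (hA : Perm (ZMod p ⊕ Bool)) = hP u ∧ EE p r (DA : Perm (ZMod p ⊕ Bool)) = GT δ E ∧
      (zA : Perm (ZMod p ⊕ Bool)) = zP ∧
      zA ^ p = 1 ∧ (∀ i, zA * cycA i * zA⁻¹ = cycA (i + 1)) ∧ hA * zA * hA⁻¹ = zA ^ g ∧
      (DA ^ E') * cycA 0 * (DA ^ E')⁻¹ = cycA (1 - (r : ZMod p)) := by
  obtain ⟨L, hL⟩ := GT_lift (p := p) (r := r) hr2 δ E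
  have hsL : sign L = 1 := by rw [← sign_EE (r := r), hL, sign_GT, hsign]
  let hA : alternatingGroup (ZMod p ⊕ Bool) := ⟨hP u, sign_hP u⟩
  let DA : alternatingGroup (ZMod p ⊕ Bool) := ⟨L, hsL⟩
  let zA : alternatingGroup (ZMod p ⊕ Bool) := ⟨zP, sign_zP hp3⟩
  have hsurj : Function.Surjective (FreeGroup.lift (cycA : ZMod p → alternatingGroup (ZMod p ⊕ Bool))) := by
    rw [← MonoidHom.range_eq_top, FreeGroup.range_lift_eq_closure, closure_cycA]
  obtain ⟨Wh, hWh⟩ := hsurj hA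
  obtain ⟨WD, hWD⟩ := hsurj DA
  refine ⟨Wh, WD, hA, DA, zA, hWh, hWD, rfl, hL, rfl, ?_, ?_, ?_, ?_⟩
  · apply Subtype.ext
    simpa using zP_pow_self
  · intro i
    apply Subtype.ext
    exact zP_conj i
  · apply Subtype.ext
    exact hP_conj u g hg
  · apply Subtype.ext
    apply EE_injective (p := p) (r := r)
    have h1 : EE p r ((((DA ^ E') * cycA 0 * (DA ^ E')⁻¹ : alternatingGroup (ZMod p ⊕ Bool))) : Perm (ZMod p ⊕ Bool)) =
        (GT (p := p) (r := r) δ E ^ E') * cyc (pt p r 0) * (GT (p := p) (r := r) δ E ^ E')⁻¹ := by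
      simp only [Subgroup.coe_mul, Subgroup.coe_inv, Subgroup.coe_pow, map_mul, map_inv, map_pow]
      have : ((cycA (0 : ZMod p) : alternatingGroup (ZMod p ⊕ Bool)) : Perm (ZMod p ⊕ Bool)) = cyc 0 := rfl
      rw [this, EE_cyc]
      simp only [DA, hL]
    rw [h1, conj_cyc _ (GT_pow_zero hr1 δ E E' hEE) (GT_pow_inr δ E E' hEE _) (GT_pow_inr δ E E' hEE _),
      ← pt_one_sub hr1 hr2]
    show _ = EE p r (cyc _)
    rw [EE_cyc]

theorem core_T (hp3 : p ≠ 2) (hr1 : 1 ≤ r) (hr2 : r + 1 ≤ p) (δ : Bool) (u : (ZMod p)ˣ) (g : ℕ)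
    (hg : (g : ZMod p) = u) (E : ℕ) (Wh WD : FreeGroup (ZMod p))
    (hWh : FreeGroup.lift cyc Wh = hP u) (hWD : EE p r (FreeGroup.lift cyc WD) = GT δ E) :
    Core p r g (ee δ) (ee (bh u)) E (zT p r) (aT p r δ) (cT p r δ) Wh WD := by
  have hH : ev p (zT p r) (aT p r δ) (cT p r δ) Wh = EE p r (hP u) := by rw [ev_T, hWh]
  have hD : ev p (zT p r) (aT p r δ) (cT p r δ) WD = GT δ E := by rw [ev_T, hWD]
  have h10 : (1 : ZMod (p + r)) = ((1 : ℕ) : ZMod (p + r)) := by simp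
  refine ⟨?_, ?_, ?_, ?_, ?_, ?_, ?_, ?_, ?_⟩
  · rw [zT, ← map_pow, zP_pow_self, map_one]
  · rw [aT_eq, ← zpow_natCast, ← zpow_mul, mul_comm, zpow_mul, zpow_natCast, isCar_cyc.cube, one_zpow]
  · rw [aT_eq]
    have h1 : zT p r * cyc (1 : ZMod (p + r)) * (zT p r)⁻¹ = cyc 1 := by
      apply conj_cyc _ ?_ (zT_inr _) (zT_inr _)
      rw [h10]
      exact zT_fix le_rfl hr1
    have h2 : zT p r * cyc (1 : ZMod (p + r)) = cyc 1 * zT p r := by
      rwa [mul_inv_eq_iff_eq_mul] at h1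
    exact (Commute.zpow_right (show Commute _ _ from h2) _)
  · rw [hH, zT, ← map_mul, ← map_inv, ← map_mul, hP_conj u g hg, map_pow]
  · rw [hH, aT_eq, ← conj_zpow]
    have h1 : EE p r (hP u) * cyc (1 : ZMod (p + r)) * (EE p r (hP u))⁻¹ =
        cyc 1 ^ ((ee (bh u) : ℤˣ) : ℤ) := by
      apply conj_tw _ _ ?_ ?_
      · rw [h10]
        exact EE_fix _ le_rfl hr1
      · intro b
        rw [EE_inr]; rfl
    rw [h1, ← zpow_mul, ← zpow_mul, mul_comm]
  · rw [xl_T, xl_T]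
    exact isCar_cyc.pair _ _ (fun h => zero_ne_one (pt_inj h))
  · rw [hH]
    ext1 ω
    rcases ω with q | b
    · rcases pt_cases q with ⟨k, hk, rfl⟩ | ⟨i, hi, rfl⟩
      · have hfix : ∀ j : ℕ, j ≤ r → EE p r (hP u) (Sum.inl (j : ZMod (p + r))) = Sum.inl (j : ZMod (p + r)) := by
          intro j hj
          by_cases h0 : j = 0
          · subst h0
            have := EE_inl (p := p) (r := r) (hP u) 0
            rw [pt_zero, hP_inl, mul_zero, iota_inl, pt_zero] at this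
            simpa using this
          · exact EE_fix _ (by omega) hj
        rcases Nat.lt_or_eq_of_le hk with h | h
        · rw [Perm.mul_apply, Perm.mul_apply, hfix k hk]
          change dT p r δ _ = EE p r (hP u) (dT p r δ _)
          rw [dT_lt δ h, hfix (k + 1) h]
        · rw [h, Perm.mul_apply, Perm.mul_apply, hfix r le_rfl]
          change dT p r δ _ = EE p r (hP u) (dT p r δ _)
          rw [dT_r δ hr1]
          have := hfix 0 (Nat.zero_le _)
          simp only [Nat.cast_zero] at this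
          rw [this]
      · rw [Perm.mul_apply, Perm.mul_apply, EE_inl, hP_inl, iota_inl]
        change dT p r δ _ = EE p r (hP u) (dT p r δ _)
        have h1 : ((u : ZMod p) * i) ≠ 0 := mul_ne_zero u.ne_zero hi
        rw [dT_pt δ h1, dT_pt δ hi, EE_inl, hP_inl, iota_inl]
    · rw [Perm.mul_apply, Perm.mul_apply, EE_inr, hP_inr, iota_inr]
      change dT p r δ _ = EE p r (hP u) (dT p r δ _)
      rw [dT_inr, dT_inr, EE_inr, hP_inr, iota_inr, tw_comm]
  · rw [xl_T]
    have h1 : (1 : ZMod p) ≠ 0 := one_ne_zero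
    exact conj_tw _ δ (dT_pt δ h1) (dT_inr δ)
  · rw [hD, GT]
    change dT p r δ ^ E = _
    group

end Pos

end Cfsg.Agent.Lib.Pres.Model
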