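import Mathlib
import Cfsg.Agent.Lib.Pres.Carmichael
import Cfsg.Agent.Lib.Pres.Glue

/-!
# The six relators

From a `Core` configuration in a group `T` to a presentation with two generators and six relators.
-/

set_option autoImplicit false
set_option linter.unusedSectionVars false
set_option linter.unusedSimpArgs false
set_option linter.unusedVariables false

namespace Cfsg.Agent.Lib.Pres.Rels

open Cfsg.Agent.Lib.Pres.Glue

section Words

variable {Γ Γ' : Type*} [Group Γ] [Group Γ']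

/-- `z` as a word in `y`. -/
def rz (A : ℤ) (y : Γ) : Γ := y ^ (3 * A)

/-- `a` as a word in `y`. -/
def ra (p : ℕ) (B : ℤ) (y : Γ) : Γ := y ^ ((p : ℤ) * B)

/-- First relator. -/
def r1 (p : ℕ) (y : Γ) : Γ := y ^ (3 * p)

/-- Second relator. -/
def r2 (p g : ℕ) (eh : ℤˣ) (A B : ℤ) (Wh : FreeGroup (ZMod p)) (y c : Γ) : Γ :=
  ev p (rz A y) (ra p B y) c Wh * y * (ev p (rz A y) (ra p B y) c Wh)⁻¹ *
    ((rz A y) ^ g * (ra p B y) ^ (eh : ℤ))⁻¹

/-- Third relator. -/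
def r3 (p : ℕ) (A B : ℤ) (y c : Γ) : Γ :=
  (xl p (rz A y) (ra p B y) c 0 * xl p (rz A y) (ra p B y) c 1) ^ 2

/-- Fourth relator. -/
def r4 (p : ℕ) (A B : ℤ) (Wh : FreeGroup (ZMod p)) (y c : Γ) : Γ :=
  dd (rz A y) c * ev p (rz A y) (ra p B y) c Wh * (dd (rz A y) c)⁻¹ *
    (ev p (rz A y) (ra p B y) c Wh)⁻¹

/-- Fifth relator. -/
def r5 (p : ℕ) (e : ℤˣ) (A B : ℤ) (y c : Γ) : Γ :=
  dd (rz A y) c * xl p (rz A y) (ra p B y) c 1 * (dd (rz A y) c)⁻¹ *
    (xl p (rz A y) (ra p B y) c 1 ^ (e : ℤ))⁻¹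

/-- Sixth relator. -/
def r6 (p r E : ℕ) (A B : ℤ) (WD : FreeGroup (ZMod p)) (y c : Γ) : Γ :=
  dd (rz A y) c ^ E * (c ^ r * ev p (rz A y) (ra p B y) c WD * (c ^ r)⁻¹)⁻¹

theorem map_rz (f : Γ →* Γ') (A : ℤ) (y : Γ) : f (rz A y) = rz A (f y) := by
  simp [rz]

theorem map_ra (f : Γ →* Γ') (p : ℕ) (B : ℤ) (y : Γ) : f (ra p B y) = ra p B (f y) := by
  simp [ra]

theorem map_x0 (f : Γ →* Γ') (a c : Γ) : f (x0 a c) = x0 (f a) (f c) := by
  simp [x0]

theorem map_dd (f : Γ →* Γ') (z c : Γ) : f (dd z c) = dd (f z) (f c) := by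
  simp [dd]

theorem map_xl (f : Γ →* Γ') (p : ℕ) (z a c : Γ) (i : ZMod p) :
    f (xl p z a c i) = xl p (f z) (f a) (f c) i := by
  simp [xl, map_x0]

theorem map_ev (f : Γ →* Γ') (p : ℕ) (z a c : Γ) (W : FreeGroup (ZMod p)) :
    f (ev p z a c W) = ev p (f z) (f a) (f c) W := by
  have : f.comp (ev p z a c) = ev p (f z) (f a) (f c) := by
    ext i
    simp [ev, map_xl]
  rw [← this]; rfl

theorem map_r1 (f : Γ →* Γ') (p : ℕ) (y : Γ) : f (r1 p y) = r1 p (f y) := by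
  simp [r1]

theorem map_r2 (f : Γ →* Γ') (p g : ℕ) (eh : ℤˣ) (A B : ℤ) (Wh : FreeGroup (ZMod p)) (y c : Γ) :
    f (r2 p g eh A B Wh y c) = r2 p g eh A B Wh (f y) (f c) := by
  simp [r2, map_ev, map_rz, map_ra]

theorem map_r3 (f : Γ →* Γ') (p : ℕ) (A B : ℤ) (y c : Γ) :
    f (r3 p A B y c) = r3 p A B (f y) (f c) := by
  simp [r3, map_xl, map_rz, map_ra]

theorem map_r4 (f : Γ →* Γ') (p : ℕ) (A B : ℤ) (Wh : FreeGroup (ZMod p)) (y c : Γ) :
    f (r4 p A B Wh y c) = r4 p A B Wh (f y) (f c) := by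
  simp [r4, map_ev, map_rz, map_ra, map_dd]

theorem map_r5 (f : Γ →* Γ') (p : ℕ) (e : ℤˣ) (A B : ℤ) (y c : Γ) :
    f (r5 p e A B y c) = r5 p e A B (f y) (f c) := by
  simp [r5, map_xl, map_rz, map_ra, map_dd]

theorem map_r6 (f : Γ →* Γ') (p r E : ℕ) (A B : ℤ) (WD : FreeGroup (ZMod p)) (y c : Γ) :
    f (r6 p r E A B WD y c) = r6 p r E A B WD (f y) (f c) := by
  simp [r6, map_ev, map_rz, map_ra, map_dd]

variable {p r g E : ℕ} {e eh : ℤˣ} {A B : ℤ} {Wh WD : FreeGroup (ZMod p)}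

theorem rz_mul_ra (hAB : 3 * A + (p : ℤ) * B = 1) (y : Γ) : rz A y * ra p B y = y := by
  rw [rz, ra, ← zpow_add, hAB, zpow_one]

/-- Powers of `z` and `a` inside the group generated by `y`. -/
theorem aux_z {z : Γ} (hAB : 3 * A + (p : ℤ) * B = 1) (hz : z ^ p = 1) : z ^ (3 * A) = z := by
  have h1 : 3 * A = 1 + (p : ℤ) * (-B) := by linarith
  rw [h1, zpow_add, zpow_one, zpow_mul, zpow_natCast, hz, one_zpow, mul_one]

theorem aux_a {a : Γ} (hAB : 3 * A + (p : ℤ) * B = 1) (ha : a ^ 3 = 1) :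
    a ^ ((p : ℤ) * B) = a := by
  have h1 : (p : ℤ) * B = 1 + 3 * (-A) := by linarith
  have h2 : a ^ (3 : ℤ) = 1 := by exact_mod_cast ha
  rw [h1, zpow_add, zpow_one, zpow_mul, h2, one_zpow, mul_one]

theorem aux_z0 {z : Γ} (hz : z ^ p = 1) : z ^ ((p : ℤ) * B) = 1 := by
  rw [zpow_mul, zpow_natCast, hz, one_zpow]

theorem aux_a0 {a : Γ} (ha : a ^ 3 = 1) : a ^ (3 * A) = 1 := by
  have h2 : a ^ (3 : ℤ) = 1 := by exact_mod_cast ha
  rw [zpow_mul, h2, one_zpow]

theorem core_of_rels (hAB : 3 * A + (p : ℤ) * B = 1) {y c : Γ}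
    (h1 : r1 p y = 1) (h2 : r2 p g eh A B Wh y c = 1) (h3 : r3 p A B y c = 1)
    (h4 : r4 p A B Wh y c = 1) (h5 : r5 p e A B y c = 1) (h6 : r6 p r E A B WD y c = 1) :
    Core p r g e eh E (rz A y) (ra p B y) c Wh WD := by
  have hz : rz A y ^ p = 1 := by
    have : rz A y ^ p = (y ^ (3 * p)) ^ A := by
      rw [rz, ← zpow_natCast (y ^ (3 * A)), ← zpow_mul, ← zpow_natCast y (3 * p), ← zpow_mul]
      congr 1
      push_cast
      ring
    rw [this, show y ^ (3 * p) = 1 from h1, one_zpow]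
  have ha : ra p B y ^ 3 = 1 := by
    have : ra p B y ^ 3 = (y ^ (3 * p)) ^ B := by
      rw [ra, ← zpow_natCast (y ^ ((p : ℤ) * B)), ← zpow_mul, ← zpow_natCast y (3 * p), ← zpow_mul]
      congr 1
      push_cast
      ring
    rw [this, show y ^ (3 * p) = 1 from h1, one_zpow]
  have hcomm : Commute (rz A y) (ra p B y) := (Commute.refl y).zpow_zpow _ _
  set H := ev p (rz A y) (ra p B y) c Wh with hH
  have hy : H * y * H⁻¹ = rz A y ^ g * ra p B y ^ (eh : ℤ) := mul_inv_eq_one.mp h2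
  have hcomm' : Commute (rz A y ^ g) (ra p B y ^ (eh : ℤ)) := (hcomm.pow_left g).zpow_right _
  refine ⟨hz, ha, hcomm, ?_, ?_, h3, ?_, mul_inv_eq_one.mp h5, mul_inv_eq_one.mp h6⟩
  · -- `H z H⁻¹ = z ^ g`
    have h7 : H * rz A y * H⁻¹ = (H * y * H⁻¹) ^ (3 * A) := by
      rw [conj_zpow]; rfl
    rw [h7, hy, hcomm'.mul_zpow]
    have h8 : (rz A y ^ g) ^ (3 * A) = rz A y ^ g := by
      rw [← zpow_natCast, ← zpow_mul, mul_comm, zpow_mul, aux_z hAB hz]
    have h9 : (ra p B y ^ (eh : ℤ)) ^ (3 * A) = 1 := by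
      rw [← zpow_mul, mul_comm, zpow_mul, aux_a0 ha, one_zpow]
    rw [h8, h9, mul_one]
  · -- `H a H⁻¹ = a ^ eh`
    have h7 : H * ra p B y * H⁻¹ = (H * y * H⁻¹) ^ ((p : ℤ) * B) := by
      rw [conj_zpow]; rfl
    rw [h7, hy, hcomm'.mul_zpow]
    have h8 : (rz A y ^ g) ^ ((p : ℤ) * B) = 1 := by
      rw [← zpow_natCast, ← zpow_mul, mul_comm, zpow_mul, aux_z0 hz, one_zpow]
    have h9 : (ra p B y ^ (eh : ℤ)) ^ ((p : ℤ) * B) = ra p B y ^ (eh : ℤ) := by
      rw [← zpow_mul, mul_comm, zpow_mul, aux_a hAB ha]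
    rw [h8, h9, one_mul]
  · -- `d H = H d`
    have h7 : dd (rz A y) c * H * (dd (rz A y) c)⁻¹ = H := mul_inv_eq_one.mp h4
    rwa [mul_inv_eq_iff_eq_mul] at h7

theorem rz_of_core {z a c : Γ} (hAB : 3 * A + (p : ℤ) * B = 1)
    (C : Core p r g e eh E z a c Wh WD) : rz A (z * a) = z := by
  have hcomm : Commute z a := C.hza
  rw [rz, hcomm.mul_zpow, aux_z hAB C.hz, aux_a0 C.ha, mul_one]

theorem ra_of_core {z a c : Γ} (hAB : 3 * A + (p : ℤ) * B = 1)
    (C : Core p r g e eh E z a c Wh WD) : ra p B (z * a) = a := by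
  have hcomm : Commute z a := C.hza
  rw [ra, hcomm.mul_zpow, aux_a hAB C.ha, aux_z0 C.hz, one_mul]

theorem r1_of_core {z a c : Γ} (C : Core p r g e eh E z a c Wh WD) : r1 p (z * a) = 1 := by
  have hcomm : Commute z a := C.hza
  rw [r1, hcomm.mul_pow, mul_comm 3 p, pow_mul, C.hz, mul_comm p 3, pow_mul, C.ha]
  simp

theorem r2_of_core {z a c : Γ} (hAB : 3 * A + (p : ℤ) * B = 1)
    (C : Core p r g e eh E z a c Wh WD) : r2 p g eh A B Wh (z * a) c = 1 := by
  rw [r2, rz_of_core hAB C, ra_of_core hAB C, mul_inv_eq_one]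
  set H := ev p z a c Wh
  calc H * (z * a) * H⁻¹ = (H * z * H⁻¹) * (H * a * H⁻¹) := by group
    _ = z ^ g * a ^ (eh : ℤ) := by rw [C.hHz, C.hHa]

theorem r3_of_core {z a c : Γ} (hAB : 3 * A + (p : ℤ) * B = 1)
    (C : Core p r g e eh E z a c Wh WD) : r3 p A B (z * a) c = 1 := by
  rw [r3, rz_of_core hAB C, ra_of_core hAB C]
  exact C.hpair

theorem r4_of_core {z a c : Γ} (hAB : 3 * A + (p : ℤ) * B = 1)
    (C : Core p r g e eh E z a c Wh WD) : r4 p A B Wh (z * a) c = 1 := by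
  rw [r4, rz_of_core hAB C, ra_of_core hAB C, mul_inv_eq_one, mul_inv_eq_iff_eq_mul]
  exact C.hdH

theorem r5_of_core {z a c : Γ} (hAB : 3 * A + (p : ℤ) * B = 1)
    (C : Core p r g e eh E z a c Wh WD) : r5 p e A B (z * a) c = 1 := by
  rw [r5, rz_of_core hAB C, ra_of_core hAB C, mul_inv_eq_one]
  exact C.hdx

theorem r6_of_core {z a c : Γ} (hAB : 3 * A + (p : ℤ) * B = 1)
    (C : Core p r g e eh E z a c Wh WD) : r6 p r E A B WD (z * a) c = 1 := by
  rw [r6, rz_of_core hAB C, ra_of_core hAB C, mul_inv_eq_one]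
  exact C.hD

end Words

section Pres

variable {p r g E : ℕ} {e eh : ℤˣ} {A B : ℤ} {Wh WD : FreeGroup (ZMod p)}

/-- The relators. -/
def relSet (p r g E : ℕ) (e eh : ℤˣ) (A B : ℤ) (Wh WD : FreeGroup (ZMod p)) :
    Finset (FreeGroup (Fin 2)) :=
  {r1 p (FreeGroup.of 0), r2 p g eh A B Wh (FreeGroup.of 0) (FreeGroup.of 1),
    r3 p A B (FreeGroup.of 0) (FreeGroup.of 1), r4 p A B Wh (FreeGroup.of 0) (FreeGroup.of 1),
    r5 p e A B (FreeGroup.of 0) (FreeGroup.of 1), r6 p r E A B WD (FreeGroup.of 0) (FreeGroup.of 1)}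

theorem card_relSet : (relSet p r g E e eh A B Wh WD).card ≤ 6 := Finset.card_le_six

theorem iso_of_core {T : Type} [Group T] (K : Subgroup T) [hK : Finite K] [Fact p.Prime] [NeZero p]
    (hAB : 3 * A + (p : ℤ) * B = 1) {z a c : T} (C : Core p r g e eh E z a c Wh WD)
    (hKc : Subgroup.closure ({z * a, c} : Set T) = K)
    (hbound : ∀ (Γ : Type) [Group Γ] (z a c : Γ), Core p r g e eh E z a c Wh WD →
      Finite (Subgroup.closure ({z * a, c} : Set Γ)) ∧
        2 * Nat.card (Subgroup.closure ({z * a, c} : Set Γ)) ≤ E * (p + r + 2).factorial)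
    (hcard : E * (p + r + 2).factorial ≤ 2 * Nat.card K) :
    ∃ R : Finset (FreeGroup (Fin 2)), R.card ≤ 6 ∧
      Nonempty (PresentedGroup (R : Set (FreeGroup (Fin 2))) ≃* K) := by
  classical
  refine ⟨relSet p r g E e eh A B Wh WD, card_relSet, ?_⟩
  set R := relSet p r g E e eh A B Wh WD with hR
  let P := PresentedGroup (R : Set (FreeGroup (Fin 2)))
  let mk : FreeGroup (Fin 2) →* P := PresentedGroup.mk _
  let Y : P := mk (FreeGroup.of 0)
  let C' : P := mk (FreeGroup.of 1)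
  have hmem : ∀ w ∈ R, mk w = 1 := fun w hw => PresentedGroup.one_of_mem (by exact_mod_cast hw)
  have h1 : r1 p Y = 1 := by
    rw [← map_r1]; exact hmem _ (by simp [hR, relSet])
  have h2 : r2 p g eh A B Wh Y C' = 1 := by
    rw [← map_r2]; exact hmem _ (by simp [hR, relSet])
  have h3 : r3 p A B Y C' = 1 := by
    rw [← map_r3]; exact hmem _ (by simp [hR, relSet])
  have h4 : r4 p A B Wh Y C' = 1 := by
    rw [← map_r4]; exact hmem _ (by simp [hR, relSet])
  have h5 : r5 p e A B Y C' = 1 := by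
    rw [← map_r5]; exact hmem _ (by simp [hR, relSet])
  have h6 : r6 p r E A B WD Y C' = 1 := by
    rw [← map_r6]; exact hmem _ (by simp [hR, relSet])
  have hCP := core_of_rels hAB h1 h2 h3 h4 h5 h6
  obtain ⟨hfin, hle⟩ := hbound P _ _ _ hCP
  rw [rz_mul_ra hAB] at hfin hle
  have htop : Subgroup.closure ({Y, C'} : Set P) = ⊤ := by
    rw [eq_top_iff, ← PresentedGroup.closure_range_of (R : Set (FreeGroup (Fin 2))), Subgroup.closure_le]
    rintro _ ⟨i, rfl⟩
    apply Subgroup.subset_closure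
    fin_cases i
    · exact Or.inl rfl
    · exact Or.inr rfl
  rw [htop] at hfin hle
  haveI hPfin : Finite P := Finite.of_equiv _ Subgroup.topEquiv.toEquiv
  have hle' : Nat.card P ≤ Nat.card K := by
    have : Nat.card (⊤ : Subgroup P) = Nat.card P := Nat.card_congr Subgroup.topEquiv.toEquiv
    omega
  -- the homomorphism
  let f : Fin 2 → T := ![z * a, c]
  have hlift : ∀ w ∈ R, FreeGroup.lift f w = 1 := by
    have e0 : FreeGroup.lift f (FreeGroup.of 0) = z * a := by simp [f]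
    have e1 : FreeGroup.lift f (FreeGroup.of 1) = c := by simp [f]
    intro w hw
    simp only [hR, relSet, Finset.mem_insert, Finset.mem_singleton] at hw
    rcases hw with rfl | rfl | rfl | rfl | rfl | rfl
    · rw [map_r1, e0]; exact r1_of_core C
    · rw [map_r2, e0, e1]; exact r2_of_core hAB C
    · rw [map_r3, e0, e1]; exact r3_of_core hAB C
    · rw [map_r4, e0, e1]; exact r4_of_core hAB C
    · rw [map_r5, e0, e1]; exact r5_of_core hAB C
    · rw [map_r6, e0, e1]; exact r6_of_core hAB C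
  let φ : P →* T := PresentedGroup.toGroup hlift
  have hrange : φ.range = K := by
    rw [← hKc, MonoidHom.range_eq_map, ← htop, MonoidHom.map_closure]
    congr 1
    rw [Set.image_pair]
    have e0 : φ Y = z * a := by
      have : φ Y = f 0 := PresentedGroup.toGroup.of hlift
      simpa [f] using this
    have e1 : φ C' = c := by
      have : φ C' = f 1 := PresentedGroup.toGroup.of hlift
      simpa [f] using this
    rw [e0, e1]
  have hle2 : Nat.card P ≤ Nat.card φ.range := by rw [hrange]; exact hle'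
  have hbij : Function.Bijective φ.rangeRestrict :=
    (MonoidHom.rangeRestrict_surjective φ).bijective_of_nat_card_le hle2
  exact ⟨(MulEquiv.ofBijective φ.rangeRestrict hbij).trans (MulEquiv.subgroupCongr hrange)⟩

end Pres

end Cfsg.Agent.Lib.Pres.Rels
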