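import Mathlib
import Cfsg.Agent.Lib.Pres.Carmichael
import Cfsg.Agent.Lib.Pres.Glue
import Cfsg.Agent.Lib.Pres.Model
import Cfsg.Agent.Lib.Pres.Rels

/-!
# Presentations of `A_n` and `S_n` for `n ≥ 8`: two generators and six relators
-/

set_option autoImplicit false
set_option linter.unusedSectionVars false
set_option linter.unusedSimpArgs false
set_option linter.unusedVariables false

namespace Cfsg.Agent.Lib.Pres.Large

open Equiv Equiv.Perm Cfsg.Agent.Lib.Pres.Carmichael Cfsg.Agent.Lib.Pres.Glue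
  Cfsg.Agent.Lib.Pres.Model Cfsg.Agent.Lib.Pres.Rels

/-- Choice of the prime, from Bertrand's postulate. -/
theorem exists_prime_param (n : ℕ) (hn : 8 ≤ n) :
    ∃ p r : ℕ, p.Prime ∧ 5 ≤ p ∧ 1 ≤ r ∧ r + 1 ≤ p ∧ p + r + 2 = n := by
  have key : ∀ p m : ℕ, p.Prime → 4 ≤ p → p + 1 ≤ m → m + 1 ≤ 2 * p → 6 ≤ m →
      ∃ p r : ℕ, p.Prime ∧ 5 ≤ p ∧ 1 ≤ r ∧ r + 1 ≤ p ∧ p + r = m := by
    intro p m hp h4 h1 h2 h6
    have h5 : 5 ≤ p := by
      rcases Nat.lt_or_ge p 5 with h | h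
      · have : p = 4 := by omega
        subst this
        exact absurd hp (by norm_num)
      · exact h
    exact ⟨p, m - p, hp, h5, by omega, by omega, by omega⟩
  obtain ⟨m, rfl⟩ : ∃ m, n = m + 2 := ⟨n - 2, by omega⟩
  have hm : 6 ≤ m := by omega
  suffices h : ∃ p r : ℕ, p.Prime ∧ 5 ≤ p ∧ 1 ≤ r ∧ r + 1 ≤ p ∧ p + r = m by
    obtain ⟨p, r, h1, h2, h3, h4, h5⟩ := h
    exact ⟨p, r, h1, h2, h3, h4, by omega⟩
  rcases Nat.even_or_odd' m with ⟨k, rfl | rfl⟩
  · -- `m = 2 k`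
    obtain ⟨p, hp, h1, h2⟩ := Nat.exists_prime_lt_and_le_two_mul k (by omega)
    have h3 : p ≠ 2 * k := by
      intro h
      rw [h] at hp
      exact Nat.not_prime_mul (by omega) (by omega) hp
    exact key p (2 * k) hp (by omega) (by omega) (by omega) hm
  · -- `m = 2 k + 1`
    obtain ⟨p, hp, h1, h2⟩ := Nat.exists_prime_lt_and_le_two_mul k (by omega)
    exact key p (2 * k + 1) hp (by omega) (by omega) (by omega) hm

variable {p r : ℕ} [hpf : Fact p.Prime] [hne : NeZero p] [hne2 : NeZero (p + r)]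

theorem exists_gen (hp5 : 5 ≤ p) : ∃ (u : (ZMod p)ˣ) (g : ℕ), (g : ZMod p) = u ∧
    (g : ZMod p) ≠ 1 ∧ ∀ v : ZMod p, v ≠ 0 → ∃ k : ℕ, v = (g : ZMod p) ^ k := by
  obtain ⟨u, hu⟩ := IsCyclic.exists_generator (α := (ZMod p)ˣ)
  have hg : ((u : ZMod p).val : ZMod p) = u := ZMod.natCast_zmod_val _
  have hall : ∀ v : ZMod p, v ≠ 0 → ∃ k : ℕ, v = (u : ZMod p) ^ k := by
    intro v hv
    have h1 : Units.mk0 v hv ∈ Subgroup.zpowers u := hu _
    rw [← mem_powers_iff_mem_zpowers] at h1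
    obtain ⟨k, hk⟩ := h1
    refine ⟨k, ?_⟩
    have := congrArg Units.val hk
    simpa using this.symm
  refine ⟨u, (u : ZMod p).val, hg, ?_, ?_⟩
  · rw [hg]
    intro h1
    have h2 : (2 : ZMod p) ≠ 0 := by
      have : ((2 : ℕ) : ZMod p) ≠ 0 := by
        rw [Ne, ZMod.natCast_eq_zero_iff]
        intro h3
        have := Nat.le_of_dvd (by norm_num) h3
        omega
      simpa using this
    obtain ⟨k, hk⟩ := hall 2 h2
    rw [h1, one_pow] at hk
    have h3 : (1 : ZMod p) = 0 := by linear_combination hk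
    exact one_ne_zero h3
  · rw [hg]
    exact hall

theorem exists_bezout (hp5 : 5 ≤ p) : ∃ A B : ℤ, 3 * A + (p : ℤ) * B = 1 := by
  have h1 : Nat.Coprime 3 p := by
    rw [Nat.coprime_primes Nat.prime_three hpf.out]
    omega
  have h2 : IsCoprime (3 : ℤ) (p : ℤ) := by
    have := Nat.isCoprime_iff_coprime.mpr h1
    simpa using this
  obtain ⟨a, b, hab⟩ := h2
  exact ⟨a, b, by linarith⟩

theorem lift_cycA_coe (W : FreeGroup (ZMod p)) :
    ((FreeGroup.lift (cycA : ZMod p → alternatingGroup (ZMod p ⊕ Bool)) W : alternatingGroup (ZMod p ⊕ Bool)) :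
      Perm (ZMod p ⊕ Bool)) = FreeGroup.lift cyc W := by
  have : (alternatingGroup (ZMod p ⊕ Bool)).subtype.comp (FreeGroup.lift cycA) = FreeGroup.lift cyc := by
    ext i
    simp [cycA]
  rw [← this]; rfl

theorem pres_of_sign (hp5 : 5 ≤ p) (hr1 : 1 ≤ r) (hr2 : r + 1 ≤ p) (δ : Bool) (E E' : ℕ)
    (hEE : E * E' = 2) (hsign : sign (dT p r δ ^ E) = 1)
    (K : Subgroup (Perm (ZMod (p + r) ⊕ Bool)))
    (hKc : (∀ (A : ℤ) (B : ℤ) (g : ℕ) (eh : ℤˣ) (Wh WD : FreeGroup (ZMod p)),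
      3 * A + (p : ℤ) * B = 1 →
      Core p r g (ee δ) eh E (zT p r) (aT p r δ) (cT p r δ) Wh WD →
        Subgroup.closure ({zT p r * aT p r δ, cT p r δ} : Set (Perm (ZMod (p + r) ⊕ Bool))) = K))
    (hcard : E * (p + r + 2).factorial ≤ 2 * Nat.card K) :
    ∃ R : Finset (FreeGroup (Fin 2)), R.card ≤ 6 ∧
      Nonempty (PresentedGroup (R : Set (FreeGroup (Fin 2))) ≃* K) := by
  obtain ⟨u, g, hg, hg1, hg2⟩ := exists_gen (p := p) hp5
  obtain ⟨A, B, hAB⟩ := exists_bezout (p := p) hp5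
  have hp2 : p ≠ 2 := by omega
  obtain ⟨Wh, WD, hA, DA, zA, hWh, hWD, hhA, hDA, hzA, hz1, hz2, hh2, hD2⟩ :=
    main_data (p := p) (r := r) hp2 hr1 hr2 δ u g hg E E' hEE hsign
  have hWh' : FreeGroup.lift cyc Wh = hP u := by
    rw [← lift_cycA_coe, hWh, hhA]
  have hWD' : EE p r (FreeGroup.lift cyc WD) = GT δ E := by
    rw [← lift_cycA_coe, hWD, hDA]
  have C := core_T (p := p) (r := r) hp2 hr1 hr2 δ u g hg E Wh WD hWh' hWD'
  refine iso_of_core K hAB C (hKc A B g _ Wh WD hAB C) ?_ hcard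
  intro Γ _ z a c hC
  exact hC.main hr1 hr2 hg1 hg2 E' hEE zA hA DA hz1 hz2 hh2 hWh hWD hD2

theorem closure_ge {δ : Bool} {g E : ℕ} {eh : ℤˣ} {Wh WD : FreeGroup (ZMod p)} {A B : ℤ}
    (hAB : 3 * A + (p : ℤ) * B = 1)
    (C : Core p r g (ee δ) eh E (zT p r) (aT p r δ) (cT p r δ) Wh WD) :
    alternatingGroup (ZMod (p + r) ⊕ Bool) ≤
      Subgroup.closure ({zT p r * aT p r δ, cT p r δ} : Set (Perm (ZMod (p + r) ⊕ Bool))) := by
  set K := Subgroup.closure ({zT p r * aT p r δ, cT p r δ} : Set (Perm (ZMod (p + r) ⊕ Bool))) with hK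
  have hy : zT p r * aT p r δ ∈ K := Subgroup.subset_closure (Or.inl rfl)
  have hc : cT p r δ ∈ K := Subgroup.subset_closure (Or.inr rfl)
  have ha : aT p r δ ∈ K := by
    have := K.zpow_mem hy ((p : ℤ) * B)
    have h2 := ra_of_core hAB C
    rw [ra] at h2
    rwa [h2] at this
  have h0 : cyc (0 : ZMod (p + r)) ∈ K := by
    rw [← x0_T (p := p) (r := r) δ, x0]
    exact K.mul_mem (K.mul_mem (K.inv_mem hc) ha) hc
  have hk : ∀ k : ℕ, cyc ((k : ℕ) : ZMod (p + r)) ∈ K := by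
    intro k
    induction k with
    | zero => simpa using h0
    | succ k ih =>
      have h1 : cT p r δ * cyc ((k : ℕ) : ZMod (p + r)) * (cT p r δ)⁻¹ =
          cyc (((k + 1 : ℕ)) : ZMod (p + r)) ^ ((ee δ : ℤˣ) : ℤ) := by
        apply conj_tw _ δ
        · rw [cT_inl]
          push_cast
          rfl
        · intro b; rfl
      have h2 : cyc (((k + 1 : ℕ)) : ZMod (p + r)) ^ ((ee δ : ℤˣ) : ℤ) ∈ K := by
        rw [← h1]
        exact K.mul_mem (K.mul_mem hc ih) (K.inv_mem hc)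
      have h3 := K.zpow_mem h2 ((ee δ : ℤˣ) : ℤ)
      rwa [zpow_unit_unit] at h3
  rw [← closure_cyc, Subgroup.closure_le]
  rintro _ ⟨q, rfl⟩
  have := hk q.val
  rwa [ZMod.natCast_zmod_val] at this

theorem sign_zT (hp2 : p ≠ 2) : sign (zT p r) = 1 := by
  rw [zT, sign_EE, sign_zP hp2]

theorem sign_aT (δ : Bool) : sign (aT p r δ) = 1 := by
  rw [aT, map_mul, map_mul, map_inv, sign_cyc, mul_one, mul_inv_cancel]

theorem sign_cT (δ : Bool) :
    sign (cT p r δ) = sign (Equiv.addRight (1 : ZMod (p + r))) * ee δ := by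
  rw [cT, sign_sumCongr, sign_tw]

theorem sign_dT (hp2 : p ≠ 2) (δ : Bool) : sign (dT p r δ) = sign (cT p r δ) := by
  rw [dT, dd, map_mul, map_inv, sign_zT hp2]
  simp

/-- The parity of the translation. -/
noncomputable def dA (p r : ℕ) [NeZero (p + r)] : Bool :=
  decide (sign (Equiv.addRight (1 : ZMod (p + r))) = -1)

theorem sign_cT_dA : sign (cT p r (dA p r)) = 1 := by
  rw [sign_cT, dA]
  rcases Int.units_eq_one_or (sign (Equiv.addRight (1 : ZMod (p + r)))) with h | h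
  · simp [h, ee]
  · simp [h, ee]

theorem sign_cT_not : sign (cT p r (!(dA p r))) = -1 := by
  rw [sign_cT, dA]
  rcases Int.units_eq_one_or (sign (Equiv.addRight (1 : ZMod (p + r)))) with h | h
  · simp [h, ee]
  · simp [h, ee]

theorem pres_alt (hp5 : 5 ≤ p) (hr1 : 1 ≤ r) (hr2 : r + 1 ≤ p) :
    ∃ R : Finset (FreeGroup (Fin 2)), R.card ≤ 6 ∧
      Nonempty (PresentedGroup (R : Set (FreeGroup (Fin 2))) ≃*
        alternatingGroup (ZMod (p + r) ⊕ Bool)) := by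
  have hp2 : p ≠ 2 := by omega
  have hs : sign (cT p r (dA p r)) = 1 := sign_cT_dA
  refine pres_of_sign hp5 hr1 hr2 (dA p r) 1 2 rfl ?_ _ ?_ ?_
  · rw [pow_one, sign_dT hp2, hs]
  · intro A B g eh Wh WD hAB C
    apply le_antisymm
    · rw [Subgroup.closure_le]
      rintro _ (rfl | rfl)
      · simp only [SetLike.mem_coe, Equiv.Perm.mem_alternatingGroup, map_mul, sign_zT hp2, sign_aT]
        simp
      · exact hs
    · exact closure_ge hAB C
  · haveI : Nontrivial (ZMod (p + r) ⊕ Bool) := ⟨⟨Sum.inr false, Sum.inr true, by simp⟩⟩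
    have h1 := two_mul_nat_card_alternatingGroup (α := ZMod (p + r) ⊕ Bool)
    rw [one_mul, h1, Nat.card_eq_fintype_card, Fintype.card_perm]
    simp [ZMod.card]

theorem pres_sym (hp5 : 5 ≤ p) (hr1 : 1 ≤ r) (hr2 : r + 1 ≤ p) :
    ∃ R : Finset (FreeGroup (Fin 2)), R.card ≤ 6 ∧
      Nonempty (PresentedGroup (R : Set (FreeGroup (Fin 2))) ≃* Perm (ZMod (p + r) ⊕ Bool)) := by
  have hp2 : p ≠ 2 := by omega
  have hs : sign (cT p r (!(dA p r))) = -1 := sign_cT_not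
  obtain ⟨R, hR, ⟨f⟩⟩ : ∃ R : Finset (FreeGroup (Fin 2)), R.card ≤ 6 ∧
      Nonempty (PresentedGroup (R : Set (FreeGroup (Fin 2))) ≃*
        (⊤ : Subgroup (Perm (ZMod (p + r) ⊕ Bool)))) := by
    refine pres_of_sign hp5 hr1 hr2 (!(dA p r)) 2 1 rfl ?_ _ ?_ ?_
    · rw [sq, map_mul, sign_dT hp2, hs]
      decide
    · intro A B g eh Wh WD hAB C
      rw [eq_top_iff]
      have hle := closure_ge hAB C
      set K := Subgroup.closure
        ({zT p r * aT p r (!(dA p r)), cT p r (!(dA p r))} : Set (Perm (ZMod (p + r) ⊕ Bool))) with hK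
      have hc : cT p r (!(dA p r)) ∈ K := Subgroup.subset_closure (Or.inr rfl)
      intro w _
      rcases Int.units_eq_one_or (sign w) with h | h
      · exact hle h
      · have h1 : w * cT p r (!(dA p r)) ∈ K := by
          apply hle
          rw [Equiv.Perm.mem_alternatingGroup, map_mul, h, hs]
          decide
        have := K.mul_mem h1 (K.inv_mem hc)
        simpa using this
    · have h1 : Nat.card (⊤ : Subgroup (Perm (ZMod (p + r) ⊕ Bool))) = Nat.card (Perm (ZMod (p + r) ⊕ Bool)) :=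
        Nat.card_congr Subgroup.topEquiv.toEquiv
      rw [h1, Nat.card_eq_fintype_card, Fintype.card_perm]
      simp [ZMod.card]
  exact ⟨R, hR, ⟨f.trans Subgroup.topEquiv⟩⟩

end Cfsg.Agent.Lib.Pres.Large

namespace Cfsg.Agent.Lib.Pres.Large

open Equiv Equiv.Perm

/-- Two generators and six relators, for `n ≥ 8`. -/
theorem large_pres (n : ℕ) (hn : 8 ≤ n) :
    (∃ R : Finset (FreeGroup (Fin 2)), R.card ≤ 6 ∧
      Nonempty (PresentedGroup (R : Set (FreeGroup (Fin 2))) ≃* Perm (Fin n))) ∧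
    (∃ R : Finset (FreeGroup (Fin 2)), R.card ≤ 6 ∧
      Nonempty (PresentedGroup (R : Set (FreeGroup (Fin 2))) ≃* alternatingGroup (Fin n))) := by
  obtain ⟨p, r, hp, hp5, hr1, hr2, rfl⟩ := exists_prime_param n hn
  haveI : Fact p.Prime := ⟨hp⟩
  haveI : NeZero p := ⟨hp.ne_zero⟩
  haveI : NeZero (p + r) := ⟨by omega⟩
  have hc : Fintype.card (ZMod (p + r) ⊕ Bool) = p + r + 2 := by simp [ZMod.card]
  let f : ZMod (p + r) ⊕ Bool ≃ Fin (p + r + 2) := Fintype.equivFinOfCardEq hc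
  constructor
  · obtain ⟨R, hR, ⟨φ⟩⟩ := pres_sym (p := p) (r := r) hp5 hr1 hr2
    exact ⟨R, hR, ⟨φ.trans f.permCongrHom⟩⟩
  · obtain ⟨R, hR, ⟨φ⟩⟩ := pres_alt (p := p) (r := r) hp5 hr1 hr2
    exact ⟨R, hR, ⟨φ.trans f.altCongrHom⟩⟩

end Cfsg.Agent.Lib.Pres.Large
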