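import Mathlib
import Cfsg.Agent.Lib.SmallTC
import Cfsg.Agent.Lib.Pres.Carmichael
import Cfsg.Agent.Lib.Pres.Model

/-!
# Presentations from coset tables: the generic step for small degrees
-/

set_option autoImplicit false
set_option linter.unusedSectionVars false
set_option linter.unusedSimpArgs false
set_option linter.unusedVariables false

namespace Cfsg.Agent.Lib.Pres.SmallCert

open Equiv Equiv.Perm Cfsg.Agent.Lib.SmallTC Cfsg.Agent.Lib.Pres.Carmichael Cfsg.Agent.Lib.Pres.Model

/-- A positive word in the free group. -/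
def fw (w : List ℕ) : FreeGroup (Fin 2) :=
  (w.map (fun i => FreeGroup.of (if i = 0 then (0 : Fin 2) else 1))).prod

/-- The relators attached to a list of positive words. -/
def relF (rl : List (List ℕ)) : Finset (FreeGroup (Fin 2)) := (rl.map fw).toFinset

theorem card_relF (rl : List (List ℕ)) : (relF rl).card ≤ rl.length := by
  have := List.toFinset_card_le (rl.map fw)
  simpa [relF] using this

/-- The presented group. -/
abbrev PP (rl : List (List ℕ)) := PresentedGroup (relF rl : Set (FreeGroup (Fin 2)))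

/-- Generators of the presented group. -/
def gg (rl : List (List ℕ)) (i : ℕ) : PP rl := PresentedGroup.of (if i = 0 then (0 : Fin 2) else 1)

theorem ev_gg (rl : List (List ℕ)) (w : List ℕ) : ev (gg rl) w = PresentedGroup.mk _ (fw w) := by
  induction w with
  | nil => simp [fw]
  | cons i w ih =>
    rw [ev_cons, ih]
    simp only [fw, List.map_cons, List.prod_cons, map_mul]
    rfl

theorem ev_gg_mem {rl : List (List ℕ)} {w : List ℕ} (hw : w ∈ rl) : ev (gg rl) w = 1 := by
  rw [ev_gg]
  apply PresentedGroup.one_of_mem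
  simp only [relF, List.coe_toFinset, Set.mem_setOf_eq, List.mem_map]
  exact ⟨w, hw, rfl⟩

theorem nth_mem {α : Type*} (d : α) (l : List α) (r : ℕ) (h : r < l.length) : nth d l r ∈ l := by
  induction l generalizing r with
  | nil => simp at h
  | cons a l ih =>
    cases r with
    | zero => simp [nth]
    | succ r =>
      simp only [nth]
      exact List.mem_cons_of_mem _ (ih r (by simpa using h))

theorem nth_append_ge {α : Type*} (d : α) (l : List α) (a : α) (r : ℕ) (h : l.length ≤ r) :
    nth d (l ++ [a]) r = a ∨ nth d (l ++ [a]) r = d := by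
  induction l generalizing r with
  | nil =>
    cases r with
    | zero => simp [nth]
    | succ r => simp [nth]
  | cons b l ih =>
    cases r with
    | zero => simp at h
    | succ r =>
      simp only [List.cons_append, nth]
      exact ih r (by simpa using h)

theorem nth_append_lt {α : Type*} (d : α) (l : List α) (a : α) (r : ℕ) (h : r < l.length) :
    nth d (l ++ [a]) r ∈ l := by
  induction l generalizing r with
  | nil => simp at h
  | cons b l ih =>
    cases r with
    | zero => simp [nth]
    | succ r =>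
      simp only [List.cons_append, nth]
      exact List.mem_cons_of_mem _ (ih r (by simpa using h))

theorem pp_card_le {rl : List (List ℕ)} {tb : List (List ℕ)} {wd : List (List ℕ)}
    {tr sc : List (ℕ × ℕ)} {s k m k0 k1 : ℕ}
    (hs : List.replicate k s ∈ rl) (hk : 0 < k)
    (h0 : List.replicate (k0 + 1) 0 ∈ rl) (h1 : List.replicate (k1 + 1) 1 ∈ rl)
    (hc : check (tbl tb) (nth [] wd) (nth [] (rl ++ [[s]])) rl.length m 2 tr sc = true) :
    Finite (PP rl) ∧ Nat.card (PP rl) ≤ m * k := by
  classical
  have hw0 : nth [] wd 0 = [] := by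
    unfold check at hc
    simp only [Bool.and_eq_true, decide_eq_true_eq] at hc
    exact hc.1.2
  have hsk : gg rl s ^ k = 1 := by
    have := ev_gg_mem hs
    simpa [ev] using this
  let H : Subgroup (PP rl) := Subgroup.zpowers (gg rl s)
  have hfo : IsOfFinOrder (gg rl s) := isOfFinOrder_iff_pow_eq_one.2 ⟨k, hk, hsk⟩
  haveI : Finite H := by
    have : Finite (Subgroup.zpowers (gg rl s)) := hfo.finite_zpowers
    exact this
  have hcl : Subgroup.closure (gg rl '' {i | i < 2}) = ⊤ := by
    rw [eq_top_iff, ← PresentedGroup.closure_range_of (relF rl : Set (FreeGroup (Fin 2))),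
      Subgroup.closure_le]
    rintro _ ⟨i, rfl⟩
    apply Subgroup.subset_closure
    fin_cases i
    · exact ⟨0, by simp, rfl⟩
    · exact ⟨1, by simp, rfl⟩
  have hord : ∀ i < 2, ∃ n, (gg rl i) ^ (n + 1) = 1 := by
    intro i hi
    interval_cases i
    · refine ⟨k0, ?_⟩
      have := ev_gg_mem h0
      simpa [ev] using this
    · refine ⟨k1, ?_⟩
      have := ev_gg_mem h1
      simpa [ev] using this
  have hR : ∀ j r, (r < rl.length ∨ j = 0) →
      ev (gg rl) (nth [] wd j) * ev (gg rl) (nth [] (rl ++ [[s]]) r) *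
        (ev (gg rl) (nth [] wd j))⁻¹ ∈ H := by
    intro j r hjr
    by_cases hr : r < rl.length
    · rw [ev_gg_mem (nth_append_lt [] rl [s] r hr), mul_one, mul_inv_cancel]
      exact H.one_mem
    · have hj : j = 0 := by tauto
      subst hj
      rw [hw0]
      simp only [ev_nil, one_mul, inv_one, mul_one]
      rcases nth_append_ge [] rl [s] r (by omega) with h | h
      · rw [h]
        simp only [ev_cons, ev_nil, mul_one]
        exact Subgroup.mem_zpowers _
      · rw [h]
        exact H.one_mem
  have := finite_card_le_of_check (H := H) (g := gg rl) hR hc (pos_words_of_closure hcl hord)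
  refine ⟨this.1, this.2.trans ?_⟩
  apply Nat.mul_le_mul_left
  rw [Nat.card_zpowers]
  exact orderOf_le_of_pow_eq_one hk hsk

/-- Images of the letters. -/
def gT {T : Type*} (x y : T) (i : ℕ) : T := if i = 0 then x else y

theorem iso_of_cert {T : Type} [Group T] [Finite T] {x y : T} {rl : List (List ℕ)}
    {tb : List (List ℕ)} {wd : List (List ℕ)}
    {tr sc : List (ℕ × ℕ)} {s k m k0 k1 : ℕ}
    (hs : List.replicate k s ∈ rl) (hk : 0 < k)
    (h0 : List.replicate (k0 + 1) 0 ∈ rl) (h1 : List.replicate (k1 + 1) 1 ∈ rl)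
    (hc : check (tbl tb) (nth [] wd) (nth [] (rl ++ [[s]])) rl.length m 2 tr sc = true)
    (hrel : ∀ w ∈ rl, ev (gT x y) w = 1)
    (hgen : Subgroup.closure ({x, y} : Set T) = ⊤) (hcard : m * k ≤ Nat.card T) :
    Nonempty (PP rl ≃* T) := by
  classical
  obtain ⟨hfin, hle⟩ := pp_card_le hs hk h0 h1 hc
  let f : Fin 2 → T := ![x, y]
  have hfw : ∀ w, FreeGroup.lift f (fw w) = ev (gT x y) w := by
    intro w
    induction w with
    | nil => simp [fw]
    | cons i w ih =>
      rw [ev_cons, ← ih]
      simp only [fw, List.map_cons, List.prod_cons, map_mul, FreeGroup.lift_apply_of]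
      congr 1
      by_cases hi : i = 0
      · simp [hi, f, gT]
      · simp [hi, f, gT]
  have hlift : ∀ r ∈ (relF rl : Set (FreeGroup (Fin 2))), FreeGroup.lift f r = 1 := by
    intro r hr
    simp only [relF, List.coe_toFinset, Set.mem_setOf_eq, List.mem_map] at hr
    obtain ⟨w, hw, rfl⟩ := hr
    rw [hfw, hrel w hw]
  let φ : PP rl →* T := PresentedGroup.toGroup hlift
  have hsurj : Function.Surjective φ := by
    rw [← MonoidHom.range_eq_top, eq_top_iff, ← hgen, Subgroup.closure_le]
    rintro _ (rfl | rfl)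
    · exact ⟨PresentedGroup.of 0, by simp [φ, f]⟩
    · exact ⟨PresentedGroup.of 1, by simp [φ, f]⟩
  exact ⟨MulEquiv.ofBijective φ (hsurj.bijective_of_nat_card_le (hle.trans hcard))⟩

/-! ### The alternating side: generation -/

/-- The second generator on `Fin (l + 1) ⊕ Bool`. -/
def yP (l : ℕ) (δ : Bool) : Perm (Fin (l + 1) ⊕ Bool) :=
  Equiv.Perm.sumCongr (finRotate (l + 1)) (tw δ)

theorem closure_alt (l : ℕ) (δ : Bool) (h : sign (yP l δ) = 1) :
    Subgroup.closure ({cycA (0 : Fin (l + 1)), ⟨yP l δ, h⟩} :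
      Set (alternatingGroup (Fin (l + 1) ⊕ Bool))) = ⊤ := by
  set K := Subgroup.closure ({cycA (0 : Fin (l + 1)), ⟨yP l δ, h⟩} :
      Set (alternatingGroup (Fin (l + 1) ⊕ Bool))) with hK
  have hx : cycA (0 : Fin (l + 1)) ∈ K := Subgroup.subset_closure (Or.inl rfl)
  have hy : (⟨yP l δ, h⟩ : alternatingGroup (Fin (l + 1) ⊕ Bool)) ∈ K :=
    Subgroup.subset_closure (Or.inr rfl)
  have hstep : ∀ q : Fin (l + 1), cycA q ∈ K → cycA (q + 1) ∈ K := by
    intro q ih
    have h1 : (⟨yP l δ, h⟩ : alternatingGroup (Fin (l + 1) ⊕ Bool)) * cycA q *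
        (⟨yP l δ, h⟩ : alternatingGroup (Fin (l + 1) ⊕ Bool))⁻¹ =
        cycA (q + 1) ^ ((ee δ : ℤˣ) : ℤ) := by
      apply Subtype.ext
      have := conj_tw (yP l δ) (q := q) (q' := q + 1) δ
        (by
          show Sum.inl (finRotate (l + 1) _) = _
          rw [finRotate_succ_apply])
        (fun b => rfl)
      exact this
    have h2 := K.mul_mem (K.mul_mem hy ih) (K.inv_mem hy)
    rw [h1] at h2
    have h3 := K.zpow_mem h2 ((ee δ : ℤˣ) : ℤ)
    rwa [Cfsg.Agent.Lib.Pres.Glue.zpow_unit_unit] at h3
  have hall : ∀ q : Fin (l + 1), cycA q ∈ K := by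
    intro q
    induction q using Fin.induction with
    | zero => exact hx
    | succ i ih =>
      have := hstep _ ih
      rwa [Fin.coeSucc_eq_succ] at this
  rw [eq_top_iff, ← closure_cycA, Subgroup.closure_le]
  rintro _ ⟨q, rfl⟩
  exact hall q

end Cfsg.Agent.Lib.Pres.SmallCert
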