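import Mathlib
import Cfsg.Agent.Lib.SmallTC
import Cfsg.Agent.Lib.Pres.SmallCert
import Cfsg.Agent.Lib.Pres.SmallData
import Cfsg.Agent.Lib.Pres.Large

/-!
# Two-generator presentations of `S_n` and `A_n`: all `n`, at most six relators

Also: adding a trivial generator; changing the generating pair.
-/

set_option autoImplicit false
set_option linter.unusedSectionVars false
set_option linter.unusedSimpArgs false
set_option linter.unusedVariables false

namespace Cfsg.Agent.Lib.Pres.Final

open Equiv Equiv.Perm Cfsg.Agent.Lib.SmallTC Cfsg.Agent.Lib.Pres.SmallCert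
  Cfsg.Agent.Lib.Pres.SmallData

/-- Presentations of a given shape of a group. -/
def HasPres (T : Type) [Group T] : Prop :=
  ∃ R : Finset (FreeGroup (Fin 2)), R.card ≤ 6 ∧
    Nonempty (PresentedGroup (R : Set (FreeGroup (Fin 2))) ≃* T)

theorem hasPres_of_rl {T : Type} [Group T] {rl : List (List ℕ)} (h : rl.length ≤ 6)
    (hT : Nonempty (PP rl ≃* T)) : HasPres T :=
  ⟨relF rl, (card_relF rl).trans h, hT⟩

/-- The list of words for the trivial group. -/
def rlTriv : List (List ℕ) := [[0], [1]]
/-- The table for the trivial group. -/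
def tbTriv : List (List ℕ) := [[0, 0]]
/-- The words for the trivial group. -/
def wdTriv : List (List ℕ) := [[]]
/-- The scans for the trivial group. -/
def scTriv : List (ℕ × ℕ) := [(0, 0), (0, 1)]

theorem tcTriv : check (tbl tbTriv) (nth [] wdTriv) (nth [] (rlTriv ++ [[0]])) rlTriv.length 1 2 [] scTriv = true := by
  decide +kernel

theorem hasPres_of_subsingleton (T : Type) [Group T] [Subsingleton T] : HasPres T := by
  haveI : Finite T := Finite.of_subsingleton
  refine hasPres_of_rl (rl := rlTriv) (by decide) ?_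
  refine iso_of_cert (x := (1 : T)) (y := (1 : T)) (s := 0) (k := 1) (m := 1) (k0 := 0) (k1 := 0)
    (by decide) (by norm_num) (by decide) (by decide) tcTriv ?_ ?_ ?_
  · intro w _
    exact Subsingleton.elim _ _
  · rw [eq_top_iff]
    intro x _
    rw [Subsingleton.elim x 1]
    exact Subgroup.one_mem _
  · have := Nat.card_pos (α := T)
    omega

/-- All symmetric and alternating groups have presentations with two generators and at most six
relators. -/
theorem all_pres (n : ℕ) : HasPres (Perm (Fin n)) ∧ HasPres (alternatingGroup (Fin n)) := by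
  by_cases hn : 8 ≤ n
  · exact Large.large_pres n hn
  · have : n < 8 := by omega
    interval_cases n
    · exact ⟨hasPres_of_subsingleton _, hasPres_of_subsingleton _⟩
    · exact ⟨hasPres_of_subsingleton _, hasPres_of_subsingleton _⟩
    · haveI : Subsingleton (alternatingGroup (Fin 2)) := ⟨by decide⟩
      exact ⟨hasPres_of_rl lenS2 presS2, hasPres_of_subsingleton _⟩
    · exact ⟨hasPres_of_rl lenS3 presS3, hasPres_of_rl lenA3 presA3⟩
    · exact ⟨hasPres_of_rl lenS4 presS4, hasPres_of_rl lenA4 presA4⟩
    · exact ⟨hasPres_of_rl lenS5 presS5, hasPres_of_rl lenA5 presA5⟩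
    · exact ⟨hasPres_of_rl lenS6 presS6, hasPres_of_rl lenA6 presA6⟩
    · exact ⟨hasPres_of_rl lenS7 presS7, hasPres_of_rl lenA7 presA7⟩

/-- Adding a trivial third generator. -/
theorem add_gen {T : Type} [Group T] (h : HasPres T) :
    ∃ R : Finset (FreeGroup (Fin 3)), R.card ≤ 7 ∧
      Nonempty (PresentedGroup (R : Set (FreeGroup (Fin 3))) ≃* T) := by
  classical
  obtain ⟨R, hR, ⟨e⟩⟩ := h
  let ι : Fin 2 → Fin 3 := ![0, 1]
  let R' : Finset (FreeGroup (Fin 3)) := insert (FreeGroup.of 2) (R.image (FreeGroup.map ι))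
  refine ⟨R', (Finset.card_insert_le _ _).trans ?_, ?_⟩
  · have := Finset.card_image_le (s := R) (f := FreeGroup.map ι)
    omega
  refine ⟨MulEquiv.trans ?_ e⟩
  let f : Fin 3 → PresentedGroup (R : Set (FreeGroup (Fin 2))) :=
    ![PresentedGroup.of 0, PresentedGroup.of 1, 1]
  let g : Fin 2 → PresentedGroup (R' : Set (FreeGroup (Fin 3))) := fun i => PresentedGroup.of (ι i)
  have hf : ∀ r ∈ (R' : Set (FreeGroup (Fin 3))), FreeGroup.lift f r = 1 := by
    intro r hr
    have hr' : r ∈ R' := by exact_mod_cast hr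
    simp only [R', Finset.mem_insert, Finset.mem_image] at hr'
    rcases hr' with rfl | ⟨w, hw, rfl⟩
    · simp [f]
    · have h1 : (FreeGroup.lift f).comp (FreeGroup.map ι) =
          PresentedGroup.mk (R : Set (FreeGroup (Fin 2))) := by
        ext i
        fin_cases i
        · simp [f, ι, PresentedGroup.of]
        · simp [f, ι, PresentedGroup.of]
      have h2 : FreeGroup.lift f (FreeGroup.map ι w) = PresentedGroup.mk _ w := by
        rw [← h1]; rfl
      rw [h2]
      exact PresentedGroup.one_of_mem (by exact_mod_cast hw)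
  have hg : ∀ r ∈ (R : Set (FreeGroup (Fin 2))), FreeGroup.lift g r = 1 := by
    intro r hr
    have h1 : FreeGroup.lift g = (PresentedGroup.mk (R' : Set (FreeGroup (Fin 3)))).comp (FreeGroup.map ι) := by
      ext i
      simp [g, PresentedGroup.of]
    rw [h1]
    apply PresentedGroup.one_of_mem
    simp only [R', Finset.coe_insert, Finset.coe_image]
    exact Or.inr ⟨r, hr, rfl⟩
  refine MonoidHom.toMulEquiv (PresentedGroup.toGroup hf) (PresentedGroup.toGroup hg) ?_ ?_
  · apply PresentedGroup.ext
    intro i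
    fin_cases i
    · simp [f, g, ι]
    · simp [f, g, ι]
    · simp only [MonoidHom.comp_apply, PresentedGroup.toGroup.of, MonoidHom.id_apply]
      have h2 : PresentedGroup.of (rels := (R' : Set (FreeGroup (Fin 3)))) 2 = 1 := by
        apply PresentedGroup.one_of_mem
        simp [R']
      simp [f, h2]
  · apply PresentedGroup.ext
    intro i
    fin_cases i
    · simp [f, g, ι]
    · simp [f, g, ι]

/-- Change of the generating pair. -/
theorem tietze {T : Type} [Group T] (R : Finset (FreeGroup (Fin 2)))
    (e : PresentedGroup (R : Set (FreeGroup (Fin 2))) ≃* T) (a b : T)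
    (hab : Subgroup.closure ({a, b} : Set T) = ⊤) :
    ∃ R' : Finset (FreeGroup (Fin 2)), R'.card ≤ R.card + 2 ∧
      ∃ e' : PresentedGroup (R' : Set (FreeGroup (Fin 2))) ≃* T,
        e' (PresentedGroup.of 0) = a ∧ e' (PresentedGroup.of 1) = b := by
  classical
  let ab : Fin 2 → T := ![a, b]
  have hrab : Set.range ab = {a, b} := by
    ext x
    simp [ab, Fin.exists_fin_two, eq_comm, or_comm]
  let gi : Fin 2 → T := fun i => e (PresentedGroup.of i)
  have hsurjab : Function.Surjective (FreeGroup.lift ab) := by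
    rw [FreeGroup.lift_surjective_iff_closure_range_eq_top, hrab, hab]
  have hegi : ∀ w, e (PresentedGroup.mk _ w) = FreeGroup.lift gi w := by
    intro w
    have : (e.toMonoidHom).comp (PresentedGroup.mk (R : Set (FreeGroup (Fin 2)))) = FreeGroup.lift gi := by
      ext i
      simp [gi, PresentedGroup.of]
    rw [← this]; rfl
  have hsurjg : Function.Surjective (FreeGroup.lift gi) := by
    intro t
    obtain ⟨w, hw⟩ := PresentedGroup.mk_surjective _ (e.symm t)
    exact ⟨w, by rw [← hegi, hw]; simp⟩
  choose W hW using fun i => hsurjab (gi i)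
  obtain ⟨V0, hV0⟩ := hsurjg a
  obtain ⟨V1, hV1⟩ := hsurjg b
  let sb : FreeGroup (Fin 2) →* FreeGroup (Fin 2) := FreeGroup.lift W
  let R' : Finset (FreeGroup (Fin 2)) :=
    insert (sb V0 * (FreeGroup.of 0)⁻¹) (insert (sb V1 * (FreeGroup.of 1)⁻¹) (R.image sb))
  refine ⟨R', ?_, ?_⟩
  · have h1 := Finset.card_image_le (s := R) (f := sb)
    have h2 := Finset.card_insert_le (sb V1 * (FreeGroup.of 1)⁻¹) (R.image sb)
    have h3 := Finset.card_insert_le (sb V0 * (FreeGroup.of 0)⁻¹) (insert (sb V1 * (FreeGroup.of 1)⁻¹) (R.image sb))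
    show (insert (sb V0 * (FreeGroup.of 0)⁻¹) (insert (sb V1 * (FreeGroup.of 1)⁻¹) (R.image sb))).card ≤ _
    omega
  have hsb : ∀ w, FreeGroup.lift ab (sb w) = FreeGroup.lift gi w := by
    intro w
    have : (FreeGroup.lift ab).comp sb = FreeGroup.lift gi := by
      ext i
      simp [sb, hW]
    rw [← this]; rfl
  have hφ : ∀ r ∈ (R' : Set (FreeGroup (Fin 2))), FreeGroup.lift ab r = 1 := by
    intro r hr
    have hr' : r ∈ R' := by exact_mod_cast hr
    simp only [R', Finset.mem_insert, Finset.mem_image] at hr'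
    rcases hr' with rfl | rfl | ⟨w, hw, rfl⟩
    · rw [map_mul, hsb, hV0, map_inv]
      simp [ab]
    · rw [map_mul, hsb, hV1, map_inv]
      simp [ab]
    · rw [hsb, ← hegi]
      have : PresentedGroup.mk (R : Set (FreeGroup (Fin 2))) w = 1 :=
        PresentedGroup.one_of_mem (by exact_mod_cast hw)
      rw [this, map_one]
  let h : Fin 2 → PresentedGroup (R' : Set (FreeGroup (Fin 2))) := fun i => PresentedGroup.mk _ (W i)
  have hh : ∀ w, FreeGroup.lift h w = PresentedGroup.mk _ (sb w) := by
    intro w
    have : FreeGroup.lift h = (PresentedGroup.mk (R' : Set (FreeGroup (Fin 2)))).comp sb := by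
      ext i
      simp [sb, h]
    rw [this]; rfl
  have hψ : ∀ r ∈ (R : Set (FreeGroup (Fin 2))), FreeGroup.lift h r = 1 := by
    intro r hr
    rw [hh]
    apply PresentedGroup.one_of_mem
    have : sb r ∈ R' := by
      simp only [R', Finset.mem_insert, Finset.mem_image]
      exact Or.inr (Or.inr ⟨r, by exact_mod_cast hr, rfl⟩)
    exact_mod_cast this
  let φ : PresentedGroup (R' : Set (FreeGroup (Fin 2))) →* T := PresentedGroup.toGroup hφ
  let ψ₀ : PresentedGroup (R : Set (FreeGroup (Fin 2))) →* PresentedGroup (R' : Set (FreeGroup (Fin 2))) :=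
    PresentedGroup.toGroup hψ
  let ψ : T →* PresentedGroup (R' : Set (FreeGroup (Fin 2))) := ψ₀.comp e.symm.toMonoidHom
  have hφmk : ∀ w, φ (PresentedGroup.mk _ w) = FreeGroup.lift ab w := by
    intro w
    have : φ.comp (PresentedGroup.mk (R' : Set (FreeGroup (Fin 2)))) = FreeGroup.lift ab := by
      ext i
      simp [φ, PresentedGroup.of]
      exact PresentedGroup.toGroup.of hφ
    rw [← this]; rfl
  have hψmk : ∀ w, ψ (FreeGroup.lift gi w) = PresentedGroup.mk _ (sb w) := by
    intro w
    rw [← hegi, ← hh]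
    simp only [ψ, ψ₀, MonoidHom.comp_apply, MulEquiv.coe_toMonoidHom, MulEquiv.symm_apply_apply]
    have : (PresentedGroup.toGroup hψ).comp (PresentedGroup.mk (R : Set (FreeGroup (Fin 2)))) = FreeGroup.lift h := by
      ext i
      simp only [MonoidHom.comp_apply, FreeGroup.lift_apply_of]
      exact PresentedGroup.toGroup.of hψ
    rw [← this]; rfl
  have hcomp1 : φ.comp ψ = MonoidHom.id T := by
    apply MonoidHom.ext
    intro t
    obtain ⟨w, hw⟩ := hsurjg t
    rw [← hw]
    simp only [MonoidHom.comp_apply, MonoidHom.id_apply]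
    rw [hψmk, hφmk, hsb]
  have hof0 : φ (PresentedGroup.of 0) = a := by
    have : φ (PresentedGroup.of 0) = ab 0 := PresentedGroup.toGroup.of hφ
    simpa [ab] using this
  have hof1 : φ (PresentedGroup.of 1) = b := by
    have : φ (PresentedGroup.of 1) = ab 1 := PresentedGroup.toGroup.of hφ
    simpa [ab] using this
  have hcomp2 : ψ.comp φ = MonoidHom.id _ := by
    apply PresentedGroup.ext
    intro i
    simp only [MonoidHom.comp_apply, MonoidHom.id_apply]
    fin_cases i
    · show ψ (φ (PresentedGroup.of 0)) = PresentedGroup.of 0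
      rw [hof0, ← hV0, hψmk]
      have : PresentedGroup.mk (R' : Set (FreeGroup (Fin 2))) (sb V0 * (FreeGroup.of 0)⁻¹) = 1 := by
        apply PresentedGroup.one_of_mem
        have : sb V0 * (FreeGroup.of 0)⁻¹ ∈ R' := by simp [R']
        exact_mod_cast this
      rw [map_mul, map_inv, mul_inv_eq_one] at this
      exact this
    · show ψ (φ (PresentedGroup.of 1)) = PresentedGroup.of 1
      rw [hof1, ← hV1, hψmk]
      have : PresentedGroup.mk (R' : Set (FreeGroup (Fin 2))) (sb V1 * (FreeGroup.of 1)⁻¹) = 1 := by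
        apply PresentedGroup.one_of_mem
        have : sb V1 * (FreeGroup.of 1)⁻¹ ∈ R' := by simp [R']
        exact_mod_cast this
      rw [map_mul, map_inv, mul_inv_eq_one] at this
      exact this
  exact ⟨MonoidHom.toMulEquiv φ ψ hcomp2 hcomp1, hof0, hof1⟩

end Cfsg.Agent.Lib.Pres.Final
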